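import Mathlib
import Cfsg.Prelude.Def_Characters
import Cfsg.Prelude.Def_Blocks

/-!
# Definitions for the no-divisibility theorem

`A` is a finite group, `α` an automorphism of `s`-power order fixing all nonlinear irreducible
characters. `F = A'`, `Sd A = Hom(F, ℂˣ)`, `rho` is the conjugation action of `A` on `Sd A` and
`tauS α` the action of `α`, so that `tauS α * rho g * (tauS α)⁻¹ = rho (α g)`.
-/

set_option autoImplicit false

namespace Cfsg.Agent.Lib.NoDiv

open Cfsg

universe u

variable {A : Type u} [Group A]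

/-- `a` is moved by `α` modulo the derived subgroup. -/
def Bad (α : A ≃* A) (a : A) : Prop := α a * a⁻¹ ∉ commutator A

/-- The hypotheses of the main theorem on `A` and `α`. -/
structure MHyp (α : A ≃* A) (s k : ℕ) : Prop where
  hs : s.Prime
  pow_eq : ∀ a : A, (α^[s ^ k]) a = a
  fix : ∀ θ : IrrCharacter A, 1 < charDegree (θ : A → ℂ) → ∀ a, (θ : A → ℂ) (α a) = (θ : A → ℂ) a
  ndvd : ∀ θ : IrrCharacter A, 1 < charDegree (θ : A → ℂ) → ¬ s ∣ charDegree (θ : A → ℂ)
  nodiv : ∀ θ₁ θ₂ : IrrCharacter A, 1 < charDegree (θ₁ : A → ℂ) →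
    charDegree (θ₁ : A → ℂ) ∣ charDegree (θ₂ : A → ℂ) →
    charDegree (θ₁ : A → ℂ) = charDegree (θ₂ : A → ℂ)
  bad : ∃ a, Bad α a

/-- Every prime carrying a bad prime-power element is prime to `|A'|`. -/
def CaseTwo (α : A ≃* A) : Prop :=
  ∀ t : ℕ, t.Prime → ∀ (a : A) (n : ℕ), Bad α a → a ^ (t ^ n) = 1 → ¬ t ∣ Nat.card (commutator A)

/-- The second derived subgroup, as a subgroup of `A`. -/
def D2 (A : Type u) [Group A] : Subgroup A := ⁅commutator A, commutator A⁆

instance : (D2 A).Normal := by unfold D2; infer_instance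

theorem D2_le : D2 A ≤ commutator A := Subgroup.commutator_le_left _ _

/-- The dual of `A'`. -/
abbrev Sd (A : Type u) [Group A] := (commutator A) →* ℂˣ

/-- Conjugation on `A'`. -/
def conjF (g : A) : (commutator A) ≃* (commutator A) := MulAut.conjNormal g

@[simp] theorem conjF_coe (g : A) (f : commutator A) : ((conjF g f : commutator A) : A) = g * f * g⁻¹ := by
  simp [conjF, MulAut.conjNormal_apply]

/-- The conjugation action on the dual of `A'`: `(rho g s) f = s (g⁻¹ f g)`. -/
noncomputable def rho : A →* MulAut (Sd A) where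
  toFun g :=
    { toFun := fun s => s.comp (conjF g⁻¹).toMonoidHom
      invFun := fun s => s.comp (conjF g).toMonoidHom
      left_inv := fun s => by
        ext f
        simp only [MonoidHom.comp_apply, MulEquiv.coe_toMonoidHom]
        congr 2
        apply Subtype.ext
        simp [mul_assoc]
      right_inv := fun s => by
        ext f
        simp only [MonoidHom.comp_apply, MulEquiv.coe_toMonoidHom]
        congr 2
        apply Subtype.ext
        simp [mul_assoc]
      map_mul' := fun s t => by ext f; simp }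
  map_one' := by
    ext s f
    simp only [MulEquiv.coe_mk, Equiv.coe_fn_mk, MonoidHom.comp_apply, MulEquiv.coe_toMonoidHom,
      MulAut.one_apply]
    congr 2
    apply Subtype.ext
    simp
  map_mul' := fun g h => by
    ext s f
    simp only [MulEquiv.coe_mk, Equiv.coe_fn_mk, MonoidHom.comp_apply, MulEquiv.coe_toMonoidHom,
      MulAut.mul_apply]
    congr 2
    apply Subtype.ext
    simp [mul_assoc]

theorem rho_apply (g : A) (s : Sd A) (f : commutator A) : rho g s f = s (conjF g⁻¹ f) := rfl

/-- The restriction of `α` to the characteristic subgroup `A'`. -/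
noncomputable def alphaF (α : A ≃* A) : (commutator A) ≃* (commutator A) :=
  (α.subgroupMap (commutator A)).trans
    (MulEquiv.subgroupCongr ((Subgroup.characteristic_iff_map_eq.mp inferInstance) α))

@[simp] theorem alphaF_coe (α : A ≃* A) (f : commutator A) :
    ((alphaF α f : commutator A) : A) = α f := rfl

@[simp] theorem alphaF_symm_coe (α : A ≃* A) (f : commutator A) :
    α (((alphaF α).symm f : commutator A) : A) = f := by
  have h := alphaF_coe α ((alphaF α).symm f)
  rw [MulEquiv.apply_symm_apply] at h
  exact h.symm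

/-- The action of `α` on the dual of `A'`: `(tauS α s) f = s (α⁻¹ f)`. -/
noncomputable def tauS (α : A ≃* A) : MulAut (Sd A) where
  toFun s := s.comp (alphaF α).symm.toMonoidHom
  invFun s := s.comp (alphaF α).toMonoidHom
  left_inv s := by ext f; simp
  right_inv s := by ext f; simp
  map_mul' s t := by ext f; simp

theorem tauS_apply (α : A ≃* A) (s : Sd A) (f : commutator A) :
    tauS α s f = s ((alphaF α).symm f) := rfl

theorem tau_rho (α : A ≃* A) (g : A) : tauS α * rho g * (tauS α)⁻¹ = rho (α g) := by
  ext s f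
  have : (tauS α)⁻¹ s = s.comp (alphaF α).toMonoidHom := rfl
  simp only [MulAut.mul_apply, tauS_apply, rho_apply, this, MonoidHom.comp_apply,
    MulEquiv.coe_toMonoidHom]
  congr 2
  apply Subtype.ext
  apply α.injective
  simp [mul_assoc]

theorem rho_eq_one_of_mem {f : A} (hf : f ∈ commutator A) : rho f = 1 := by
  ext s w
  have h := rho_apply f s w
  rw [MulAut.one_apply, h]
  have : conjF f⁻¹ w = (⟨f, hf⟩ : commutator A)⁻¹ * w * ⟨f, hf⟩ := by
    apply Subtype.ext
    simp
  rw [this, map_mul, map_mul, mul_comm, ← mul_assoc, map_inv, mul_inv_cancel, one_mul]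

theorem rho_comm (g h : A) : rho g * rho h = rho h * rho g := by
  have h1 : g * h * g⁻¹ * h⁻¹ ∈ commutator A :=
    Subgroup.commutator_mem_commutator (Subgroup.mem_top g) (Subgroup.mem_top h)
  have h2 := rho_eq_one_of_mem h1
  rw [map_mul, map_mul, map_mul, map_inv, map_inv] at h2
  have h3 : rho g * rho h * (rho g)⁻¹ * (rho h)⁻¹ * (rho h * rho g) = rho h * rho g := by
    rw [h2, one_mul]
  rw [← h3]
  group

end Cfsg.Agent.Lib.NoDiv
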