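import Mathlib
import Cfsg.Agent.Lib.NoDiv.Defs
import Cfsg.Agent.Lib.Char.CliffordCorr
import Cfsg.Agent.Lib.Char.CoprimeCount
import Cfsg.Agent.Lib.Char.CoprimeLayers
import Cfsg.Agent.Lib.Char.ItoMichler
import Cfsg.Agent.Lib.Char.SmallDeg
import Cfsg.Agent.Lib.Char.Values

/-!
# The case `A / W` a nonabelian `t`-group with `W` a normal `t`-complement

Every nonlinear irreducible character of `A` has the same degree.
-/

set_option autoImplicit false
set_option linter.style.haveILetI false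
set_option linter.unusedSectionVars false
set_option linter.deprecated false

namespace Cfsg.Agent.Lib.NoDiv

open Cfsg Cfsg.Agent.Lib.Char Cfsg.Agent.Lib.Char.Basic Cfsg.Agent.Lib.Char.Ortho
  Cfsg.Agent.Lib.Char.Induced Cfsg.Agent.Lib.Char.CliffordCorr Cfsg.Agent.Lib.Char.Clifford
  Cfsg.Agent.Lib.Char.Monomial

universe u

/-- An irreducible character over the trivial character of a normal subgroup is trivial on it. -/
theorem triv_of_over_one {G : Type u} [Group G] [Fintype G] (N : Subgroup G) [hN : N.Normal]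
    [Fintype N] {β : G → ℂ} (hβ : IsIrrCharacter G β)
    (h : classInner (indFun N (fun _ => (1 : ℂ))) β ≠ 0) (n : N) : β n = β 1 := by
  classical
  have hcl := isClassFunction_of_isCharacter (isCharacter_of_isIrrCharacter hβ)
  rw [frobenius_reciprocity N _ _ hcl] at h
  have h2 : classInner (fun n : N => β n) (fun _ : N => (1 : ℂ)) ≠ 0 := by
    intro h0
    apply h
    rw [← classInner_conj_symm, h0]
    simp
  have h3 := res_eq_smul_finsum N hβ Burnside2.isIrrCharacter_one h2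
  have horb : orbitSet N (fun _ : N => (1 : ℂ)) = {fun _ : N => (1 : ℂ)} := by
    ext ψ
    constructor
    · rintro ⟨g, rfl⟩
      funext m
      rfl
    · intro hψ
      rw [Set.mem_singleton_iff] at hψ
      rw [hψ]
      exact mem_orbitSet_self N _
  rw [horb, finsum_mem_singleton] at h3
  have h4 := congrFun h3 n
  have h5 := congrFun h3 1
  simp only [Pi.smul_apply, smul_eq_mul, mul_one] at h4 h5
  have h6 : ((1 : N) : G) = 1 := rfl
  rw [h6] at h5
  rw [h4, h5]

set_option maxHeartbeats 1000000 in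
theorem degrees_eq_of_top {A : Type u} [Group A] [Finite A] (W : Subgroup A) [hW : W.Normal] {t : ℕ}
    (ht : t.Prime) (hcop : (Nat.card W).Coprime t) (hidx : ∃ k : ℕ, W.index = t ^ k)
    (hnab : ¬ commutator A ≤ W)
    (hnd : ∀ θ₁ θ₂ : IrrCharacter A, 1 < charDegree (θ₁ : A → ℂ) →
      charDegree (θ₁ : A → ℂ) ∣ charDegree (θ₂ : A → ℂ) →
      charDegree (θ₁ : A → ℂ) = charDegree (θ₂ : A → ℂ))
    (θ₁ θ₂ : IrrCharacter A) (h₁ : 1 < charDegree (θ₁ : A → ℂ))
    (h₂ : 1 < charDegree (θ₂ : A → ℂ)) :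
    charDegree (θ₁ : A → ℂ) = charDegree (θ₂ : A → ℂ) := by
  classical
  cases nonempty_fintype A
  obtain ⟨k, hk⟩ := hidx
  -- the nonlinear character of the quotient
  let Q := A ⧸ W
  have hQcard : Nat.card Q = t ^ k := hk
  obtain ⟨βb, hβb⟩ : ∃ χ : IrrCharacter Q, (χ : Q → ℂ) 1 ≠ 1 := by
    by_contra hcon
    push Not at hcon
    apply hnab
    have hc := ItoMichler.mul_comm_of_forall_degree_one hcon
    rw [commutator_def, Subgroup.commutator_le]
    intro a _ b _
    rw [← QuotientGroup.eq_one_iff, commutatorElement_def]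
    simp only [QuotientGroup.mk_mul, QuotientGroup.mk_inv]
    rw [hc (a : Q) (b : Q)]
    group
  obtain ⟨dβ, hdβ, hdβ0, hdβd⟩ := GlaubOver.exists_degree_dvd βb.2
  rw [hQcard] at hdβd
  obtain ⟨e, -, he⟩ := (Nat.dvd_prime_pow ht).1 hdβd
  -- inflation
  let mkQ : A →* Q := QuotientGroup.mk' W
  have hmkQ : Function.Surjective mkQ := QuotientGroup.mk'_surjective W
  let β : IrrCharacter A :=
    ⟨fun a => (βb : Q → ℂ) (mkQ a), isIrrCharacter_comp_surjective βb.2 mkQ hmkQ⟩
  have hβdeg : charDegree (β : A → ℂ) = t ^ e := by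
    apply Values.IsCharacter.charDegree_eq (Values.IsIrrCharacter.isCharacter β.2)
    show (βb : Q → ℂ) (mkQ 1) = _
    rw [map_one, hdβ, he]
  have hte : 1 < t ^ e := by
    have h1' : t ^ e ≠ 1 := by
      intro h1
      apply hβb
      rw [hdβ, he, h1]; simp
    have h0 : 0 < t ^ e := pow_pos ht.pos e
    omega
  have hβgt : 1 < charDegree (β : A → ℂ) := by rw [hβdeg]; exact hte
  suffices key : ∀ θ : IrrCharacter A, 1 < charDegree (θ : A → ℂ) →
      charDegree (θ : A → ℂ) = t ^ e by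
    rw [key θ₁ h₁, key θ₂ h₂]
  intro θ hθ
  have hθc := isCharacter_of_isIrrCharacter θ.2
  letI : Fintype W := Fintype.ofFinite _
  have hres := isCharacter_restrict hθc W
  have h1ne : (fun n : W => (θ : A → ℂ) n) 1 ≠ 0 := irr_apply_one_ne_zero θ.2
  obtain ⟨φ, hφ, hφne⟩ := exists_irr_constituent hres h1ne
  have hφc := isCharacter_of_isIrrCharacter hφ
  set T : Subgroup A := inertiaOf W φ with hTdef
  have hWT : W ≤ T := fun m hm b => isClassFunction_of_isCharacter hφc b ⟨m, hm⟩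
  letI : Fintype T := Fintype.ofFinite _
  have hTmem : ∀ g : A, g ∈ T ↔ ∀ n : W, φ ⟨g * n * g⁻¹, hW.conj_mem (n : A) n.2 g⟩ = φ n :=
    fun g => mem_inertiaOf W φ g
  obtain ⟨dφ, hdφ, hdφ0, -⟩ := GlaubOver.exists_degree_dvd hφ
  obtain ⟨ψ, hψ, hind, hinner⟩ := exists_indFun_eq W φ T hWT hφ hTmem θ.2 hφne
  -- restricted data
  let Wi : Subgroup T := W.subgroupOf T
  letI : Fintype Wi := Fintype.ofFinite _
  let eW : Wi ≃* W := Subgroup.subgroupOfEquivOfLe hWT
  let φi : Wi → ℂ := fun x => φ (eW x)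
  have hφi : IsIrrCharacter Wi φi :=
    isIrrCharacter_comp_surjective hφ eW.toMonoidHom eW.surjective
  have hinvT : ∀ (g : T) (n : Wi),
      φi ⟨g * n * g⁻¹, (inferInstance : Wi.Normal).conj_mem n n.2 g⟩ = φi n := by
    intro g n
    exact g.2 (eW n)
  have hcardWi : Nat.card Wi = Nat.card W := Nat.card_congr eW.toEquiv
  have hidxWi : Wi.index ∣ t ^ k := by
    rw [← hk]
    exact Subgroup.relIndex_dvd_index_of_normal W T
  have hcopT : Nat.Coprime (Nat.card Wi) Wi.index := by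
    rw [hcardWi]
    exact Nat.Coprime.coprime_dvd_right hidxWi (Nat.Coprime.pow_right k hcop)
  obtain ⟨χ₀, hχ₀, hχ₀ext⟩ := CoprimeCount.exists_ext_of_coprime Wi hcopT hφi hinvT
  have hone : (fun _ : Wi => (1 : ℂ)) * φi = φi := by
    funext x; simp
  have hg := Gallagher.gallagher_bijOn Wi (φ := fun _ => 1) (ϑ := φi)
      Burnside2.isIrrCharacter_one (fun _ _ => rfl) hinvT (by rw [hone]; exact hφi) hχ₀ hχ₀ext
  have hχ₀1 : χ₀ 1 = dφ := by
    have h1 := hχ₀ext 1
    have h2 : ((1 : Wi) : T) = 1 := rfl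
    rw [h2] at h1
    rw [h1, ← hdφ]
    show φ (eW 1) = φ 1
    rw [map_one]
  set κ : ℕ := T.index * dφ with hκ
  -- producing irreducible characters
  have hprod : ∀ {β' : T → ℂ} {b : ℕ}, IsIrrCharacter T β' → β' 1 = b →
      (∀ x : Wi, β' x = β' 1) → ∃ Θ : IrrCharacter A, charDegree (Θ : A → ℂ) = κ * b := by
    intro β' b hβ' hb htriv
    have hmem : β' ∈ {β'' : T → ℂ | IsIrrCharacter T β'' ∧
        classInner (indFun Wi (fun _ => 1)) β'' ≠ 0} := by
      refine ⟨hβ', ?_⟩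
      rw [frobenius_reciprocity Wi _ _
        (isClassFunction_of_isCharacter (isCharacter_of_isIrrCharacter hβ'))]
      have h5 : (fun n : Wi => β' n) = (β' 1) • fun _ : Wi => (1 : ℂ) := by
        funext x
        show β' x = β' 1 * 1
        rw [htriv x, mul_one]
      rw [h5, classInner_smul_right, classInner_irr_self Burnside2.isIrrCharacter_one, mul_one]
      exact (map_ne_zero _).2 (irr_apply_one_ne_zero hβ')
    have hψ' : IsIrrCharacter T (β' * χ₀) := (hg.mapsTo hmem).1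
    have hresT : resT W T hWT (β' * χ₀) = (β' 1) • φ := by
      funext v
      show β' ⟨v, hWT v.2⟩ * χ₀ ⟨v, hWT v.2⟩ = β' 1 * φ v
      have hv : (⟨v, hWT v.2⟩ : T) ∈ Wi := v.2
      have h1 := htriv ⟨⟨v, hWT v.2⟩, hv⟩
      have h2 := hχ₀ext ⟨⟨v, hWT v.2⟩, hv⟩
      rw [show β' ⟨v, hWT v.2⟩ = β' 1 from h1, show χ₀ ⟨v, hWT v.2⟩ = φi ⟨⟨v, hWT v.2⟩, hv⟩ from h2]
      rfl
    have hne : classInner (resT W T hWT (β' * χ₀)) φ ≠ 0 := by
      rw [hresT, classInner_smul_left, classInner_irr_self hφ, mul_one]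
      exact irr_apply_one_ne_zero hβ'
    have hΘ := isIrr_indFun W φ T hWT hφ hTmem hψ' hne
    refine ⟨⟨_, hΘ⟩, ?_⟩
    apply Values.IsCharacter.charDegree_eq (Values.IsIrrCharacter.isCharacter hΘ)
    show indFun T (β' * χ₀) 1 = _
    rw [indFun_one, Pi.mul_apply, hb, hχ₀1, hκ]
    push_cast
    ring
  -- the quotient of T
  let π₀ : T →* Q := mkQ.comp T.subtype
  let Tb : Subgroup Q := π₀.range
  let π : T →* Tb := π₀.rangeRestrict
  have hπ : Function.Surjective π := π₀.rangeRestrict_surjective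
  have hπW : ∀ x : Wi, π (x : T) = 1 := by
    intro x
    apply Subtype.ext
    show mkQ ((x : T) : A) = 1
    exact (QuotientGroup.eq_one_iff _).2 x.2
  have hπker : ∀ z : T, π z = 1 → z ∈ Wi := by
    intro z hz
    have h1 : ((z : A) : A ⧸ W) = 1 := congrArg Subtype.val hz
    show (z : A) ∈ W
    exact (QuotientGroup.eq_one_iff (z : A)).1 h1
  have hTbidx : Tb.index = T.index := by
    have h1 : Tb = T.map mkQ := by
      show π₀.range = _
      rw [MonoidHom.range_comp, Subgroup.range_subtype]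
    rw [h1, Subgroup.index_map, QuotientGroup.ker_mk', sup_eq_left.2 hWT,
      MonoidHom.range_eq_top.2 hmkQ, Subgroup.index_top, mul_one]
  -- the decomposition of ψ
  have hψc := isClassFunction_of_isCharacter (isCharacter_of_isIrrCharacter hψ)
  have htarget : ψ ∈ {ψ' : T → ℂ | IsIrrCharacter T ψ' ∧
      classInner (indFun Wi ((fun _ => 1) * φi)) ψ' ≠ 0} := by
    refine ⟨hψ, ?_⟩
    rw [hone, frobenius_reciprocity Wi _ _ hψc]
    have h1 := classInner_comp_equiv eW (resT W T hWT ψ) φ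
    have h2 : classInner (fun n : Wi => ψ n) φi ≠ 0 := by
      have h3 : classInner (fun n : Wi => ψ n) φi = classInner (resT W T hWT ψ) φ := h1
      rw [h3, hinner]
      exact hφne
    intro h0
    apply h2
    rw [← classInner_conj_symm, h0]
    simp
  obtain ⟨β₁, ⟨hβ₁, hβ₁ne⟩, hβ₁eq⟩ := hg.surjOn htarget
  have hβ₁eq' : β₁ * χ₀ = ψ := hβ₁eq
  obtain ⟨b, hb, hb0, -⟩ := GlaubOver.exists_degree_dvd hβ₁
  have htriv₁ := triv_of_over_one Wi hβ₁ hβ₁ne
  have hθdeg : charDegree (θ : A → ℂ) = κ * b := by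
    apply Values.IsCharacter.charDegree_eq (Values.IsIrrCharacter.isCharacter θ.2)
    rw [← hind, indFun_one, ← hβ₁eq', Pi.mul_apply, hb, hχ₀1, hκ]
    push_cast
    ring
  -- `b` is a power of `t`
  obtain ⟨γ, hγ, hγeq⟩ := CoprimeLayers.exists_descend π hπ hβ₁
    (fun z hz => htriv₁ ⟨z, hπker z hz⟩)
  obtain ⟨d', hd', hd'0, hd'd⟩ := GlaubOver.exists_degree_dvd hγ
  have hd'b : d' = b := by
    have h1 := hγeq 1
    rw [map_one, hd', hb] at h1
    exact_mod_cast h1
  have hbd : b ∣ t ^ k := by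
    rw [← hd'b, ← hQcard]
    exact hd'd.trans (Subgroup.card_subgroup_dvd_card Tb)
  obtain ⟨f, -, hf⟩ := (Nat.dvd_prime_pow ht).1 hbd
  have hκ0 : κ ≠ 0 := by
    rw [hκ]
    exact mul_ne_zero (Subgroup.index_ne_zero_of_finite) hdφ0
  by_cases hκ1 : κ = 1
  · rw [hκ1, one_mul, hf] at hθdeg
    rcases le_total e f with hef | hfe
    · have h1 := hnd β θ hβgt (by rw [hβdeg, hθdeg]; exact pow_dvd_pow t hef)
      rw [← h1, hβdeg]
    · have h1 := hnd θ β hθ (by rw [hβdeg, hθdeg]; exact pow_dvd_pow t hfe)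
      rw [h1, hβdeg]
  · have hκgt : 1 < κ := by omega
    obtain ⟨Θ₀, hΘ₀⟩ := hprod (β' := fun _ => 1) (b := 1) Burnside2.isIrrCharacter_one (by simp)
      (fun _ => rfl)
    rw [mul_one] at hΘ₀
    have hκθ : κ = charDegree (θ : A → ℂ) := by
      have h1 := hnd Θ₀ θ (by rw [hΘ₀]; exact hκgt) (by rw [hΘ₀, hθdeg]; exact dvd_mul_right _ _)
      rw [← h1, hΘ₀]
    -- the quotient of `T` is abelian
    have hTbab : ∀ x y : Tb, x * y = y * x := by
      apply ItoMichler.mul_comm_of_forall_degree_one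
      intro χ
      obtain ⟨c, hc, hc0, -⟩ := GlaubOver.exists_degree_dvd χ.2
      have hβ' : IsIrrCharacter T (fun z => (χ : Tb → ℂ) (π z)) :=
        isIrrCharacter_comp_surjective χ.2 π hπ
      obtain ⟨Θ, hΘ⟩ := hprod hβ' (b := c) (by simp only [map_one]; exact hc)
        (fun x => by simp only [map_one]; rw [hπW x])
      have h1 := hnd Θ₀ Θ (by rw [hΘ₀]; exact hκgt) (by rw [hΘ₀, hΘ]; exact dvd_mul_right _ _)
      rw [hΘ₀, hΘ] at h1
      have hc1 : c = 1 := by
        have h2 : κ * 1 = κ * c := by rw [mul_one]; exact h1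
        exact (Nat.eq_of_mul_eq_mul_left (Nat.pos_of_ne_zero hκ0) h2).symm
      rw [hc, hc1]
      simp
    -- the bound
    have hle : t ^ e ≤ T.index := by
      obtain ⟨m, ρ, hρ, hm⟩ := βb.2
      haveI := hρ
      have h1 := SmallDeg.finrank_le_index_of_abelian ρ Tb
        (fun a ha b hb => congrArg Subtype.val (hTbab ⟨a, ha⟩ ⟨b, hb⟩))
      rw [Module.finrank_fin_fun, hTbidx] at h1
      have h2 : ((m : ℕ) : ℂ) = (dβ : ℂ) := by
        rw [← hdβ, ← hm, Representation.char_one, Module.finrank_fin_fun]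
      have h3 : m = dβ := by exact_mod_cast h2
      rw [← he, ← h3]
      exact h1
    have hTd : T.index ∣ t ^ k := by
      rw [← hk]
      exact Subgroup.index_dvd_of_le hWT
    obtain ⟨j, -, hj⟩ := (Nat.dvd_prime_pow ht).1 hTd
    have hej : e ≤ j := by
      rw [hj] at hle
      exact (Nat.pow_le_pow_iff_right ht.one_lt).1 hle
    have hdv : t ^ e ∣ charDegree (θ : A → ℂ) := by
      rw [← hκθ, hκ, hj]
      exact (pow_dvd_pow t hej).trans (dvd_mul_right _ _)
    have h1 := hnd β θ hβgt (by rw [hβdeg]; exact hdv)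
    rw [← h1, hβdeg]

end Cfsg.Agent.Lib.NoDiv
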