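import Mathlib
import Cfsg.Agent.Lib.NoDiv.Defs

/-!
# Class two: the radical of a character of `A''`
-/

set_option autoImplicit false

namespace Cfsg.Agent.Lib.NoDiv

open Cfsg

universe u

variable {A : Type u} [Group A]

/-- The commutator of two elements of `A'`, as an element of `A''`. -/
def cm (z w : commutator A) : D2 A :=
  ⟨(z : A) * w * (z : A)⁻¹ * (w : A)⁻¹, Subgroup.commutator_mem_commutator z.2 w.2⟩

@[simp] theorem cm_coe (z w : commutator A) :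
    ((cm z w : D2 A) : A) = (z : A) * w * (z : A)⁻¹ * (w : A)⁻¹ := rfl

/-- `A''` is central in `A'`. -/
def ClassTwo (A : Type u) [Group A] : Prop := ∀ e ∈ D2 A, ∀ f ∈ commutator A, e * f = f * e

theorem cm_one_left (w : commutator A) : cm (1 : commutator A) w = 1 := by
  apply Subtype.ext; simp [cm]

theorem cm_mul_left (hcl : ClassTwo A) (a b w : commutator A) : cm (a * b) w = cm b w * cm a w := by
  apply Subtype.ext
  have hc : (cm b w : A) * (a : A) = (a : A) * (cm b w : A) := hcl _ (cm b w).2 _ a.2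
  simp only [Subgroup.coe_mul, cm_coe, mul_inv_rev] at hc ⊢
  calc (a : A) * b * w * ((b : A)⁻¹ * (a : A)⁻¹) * (w : A)⁻¹
      = (a : A) * ((b : A) * w * (b : A)⁻¹ * (w : A)⁻¹) * (w : A) * (a : A)⁻¹ * (w : A)⁻¹ := by
        group
    _ = ((b : A) * w * (b : A)⁻¹ * (w : A)⁻¹) * (a : A) * (w : A) * (a : A)⁻¹ * (w : A)⁻¹ := by
        rw [hc]
    _ = _ := by group

/-- The radical of `μ` in `A'`. -/
def Rmu (hcl : ClassTwo A) (μ : D2 A →* ℂˣ) : Subgroup (commutator A) where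
  carrier := {z | ∀ w, μ (cm z w) = 1}
  one_mem' := fun w => by rw [cm_one_left, map_one]
  mul_mem' := fun {a b} ha hb w => by
    rw [cm_mul_left hcl, map_mul, ha w, hb w, one_mul]
  inv_mem' := fun {a} ha w => by
    have h1 := cm_mul_left hcl a⁻¹ a w
    rw [inv_mul_cancel, cm_one_left] at h1
    have h2 := congrArg μ h1
    rw [map_one, map_mul, ha w, one_mul] at h2
    exact h2.symm

theorem mem_Rmu {hcl : ClassTwo A} {μ : D2 A →* ℂˣ} {z : commutator A} :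
    z ∈ Rmu hcl μ ↔ ∀ w, μ (cm z w) = 1 := Iff.rfl

/-- `ζ` extends `μ`. -/
def Ext {hcl : ClassTwo A} {μ : D2 A →* ℂˣ} (ζ : Rmu hcl μ →* ℂˣ) : Prop :=
  ∀ (e : D2 A) (he : (⟨e, D2_le e.2⟩ : commutator A) ∈ Rmu hcl μ), ζ ⟨_, he⟩ = μ e

/-- `g` fixes `ζ`. -/
def Fixes {hcl : ClassTwo A} {μ : D2 A →* ℂˣ} (g : A) (ζ : Rmu hcl μ →* ℂˣ) : Prop :=
  ∀ z : Rmu hcl μ, ∃ hz : conjF g (z : commutator A) ∈ Rmu hcl μ, ζ ⟨_, hz⟩ = ζ z

end Cfsg.Agent.Lib.NoDiv
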