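import Mathlib
import Cfsg.Agent.Lib.NoDiv.Defs

/-!
# The structure in case two: statement
-/

set_option autoImplicit false

namespace Cfsg.Agent.Lib.NoDiv

open Cfsg

universe u

variable {A : Type u} [Group A]

/-- What case two yields. -/
structure Struct (α : A ≃* A) (r : ℕ) : Prop where
  hr : r.Prime
  pF : IsPGroup r (commutator A)
  exp : ∀ x : Sd A, x ^ r = 1
  nt : ∃ x : Sd A, x ≠ 1
  stab : ∀ (g : A) (x : Sd A), x ≠ 1 → rho g x = x → rho g = 1
  irr : ∀ U : Subgroup (Sd A), (∀ g : A, ∀ u ∈ U, rho (α g * g⁻¹) u ∈ U) → U = ⊥ ∨ U = ⊤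
  cop : ¬ r ∣ (rho (A := A)).ker.index

end Cfsg.Agent.Lib.NoDiv
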