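import Mathlib
import Cfsg.Agent.Lib.NoDiv.ClassTwoDefs
import Cfsg.Agent.Lib.NoDiv.StructDefs

/-!
# Class two: uniqueness of the `g`-fixed extension of `μ`

With `F = A'`, `E = A''` central in `F` and `R = Rmu μ`: any two extensions of `μ` to `R` fixed by
elements acting nontrivially on the dual of `F` (of order prime to `r`) coincide.  If `μ` has a unique
extension then `R = E`; if this holds for every `μ ≠ 1` then `|E| < |F/E| = |Sd A|` unless `E = F`.
-/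

set_option autoImplicit false

namespace Cfsg.Agent.Lib.NoDiv

open Cfsg

universe u

namespace ClassTwoA

/-- Homomorphisms to `ℂˣ` separate points from subgroups of a finite abelian group. -/
theorem hom_sep {B : Type*} [Group B] [Finite B] (hab : ∀ a b : B, a * b = b * a)
    (S : Subgroup B) {x : B} (hx : x ∉ S) : ∃ φ : B →* ℂˣ, (∀ s ∈ S, φ s = 1) ∧ φ x ≠ 1 := by
  letI inst : CommGroup B := { (inferInstance : Group B) with mul_comm := hab }
  haveI : NeZero (Monoid.exponent B) := ⟨Monoid.exponent_ne_zero_of_finite⟩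
  by_contra hcon
  push Not at hcon
  exact hx ((CommGroup.forall_monoidHom_apply_eq_one_iff (M := ℂ) S x).mp hcon)

/-- Extending homomorphisms to `ℂˣ` from a subgroup of a finite abelian group. -/
theorem hom_extend {B : Type*} [Group B] [Finite B] (hab : ∀ a b : B, a * b = b * a)
    (S : Subgroup B) (φ : S →* ℂˣ) : ∃ ψ : B →* ℂˣ, ∀ s : S, ψ s = φ s := by
  letI inst : CommGroup B := { (inferInstance : Group B) with mul_comm := hab }
  haveI : NeZero (Monoid.exponent B) := ⟨Monoid.exponent_ne_zero_of_finite⟩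
  obtain ⟨ψ, hψ⟩ := MonoidHom.domRestrict_surjective (M := ℂ) S φ
  refine ⟨ψ, fun s => ?_⟩
  have := DFunLike.congr_fun hψ s
  simpa using this

theorem quot_comm {F : Type*} [Group F] (N : Subgroup F) [N.Normal]
    (hab : ∀ a b : F, a * b * a⁻¹ * b⁻¹ ∈ N) (a b : F ⧸ N) : a * b = b * a := by
  induction a using QuotientGroup.induction_on with | _ a => ?_
  induction b using QuotientGroup.induction_on with | _ b => ?_
  rw [← QuotientGroup.mk_mul, ← QuotientGroup.mk_mul, QuotientGroup.eq]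
  have := hab b⁻¹ a⁻¹
  simpa [mul_assoc] using this

/-- Extension of a homomorphism, through an abelian quotient. -/
theorem exists_extend {F : Type*} [Group F] [Finite F] (N : Subgroup F) [N.Normal]
    (hab : ∀ a b : F, a * b * a⁻¹ * b⁻¹ ∈ N) (R : Subgroup F) (ρ : R →* ℂˣ)
    (hρ : ∀ z : R, (z : F) ∈ N → ρ z = 1) :
    ∃ l : F →* ℂˣ, (∀ z : R, l z = ρ z) ∧ ∀ n ∈ N, l n = 1 := by
  have hQ := quot_comm N hab
  have key : ∀ z z' : R, QuotientGroup.mk' N (z : F) = QuotientGroup.mk' N (z' : F) → ρ z = ρ z' := by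
    intro z z' h
    have h1 : (z : F)⁻¹ * z' ∈ N := QuotientGroup.eq.1 h
    have h2 : ρ (z⁻¹ * z') = 1 := hρ _ (by simpa using h1)
    rw [map_mul, map_inv] at h2
    exact (inv_mul_eq_one.1 h2)
  have hrep : ∀ s : R.map (QuotientGroup.mk' N), ∃ z : R, QuotientGroup.mk' N (z : F) = s := by
    rintro ⟨s, hs⟩
    obtain ⟨z, hz, rfl⟩ := Subgroup.mem_map.1 hs
    exact ⟨⟨z, hz⟩, rfl⟩
  choose rep hrep using hrep
  let ρ' : R.map (QuotientGroup.mk' N) →* ℂˣ := MonoidHom.mk' (fun s => ρ (rep s)) (by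
    intro s t
    rw [← map_mul]
    apply key
    have h1 : QuotientGroup.mk' N ((rep s * rep t : R) : F) =
        QuotientGroup.mk' N (rep s : F) * QuotientGroup.mk' N (rep t : F) := by
      rw [Subgroup.coe_mul, map_mul]
    rw [hrep, h1, hrep, hrep]
    rfl)
  obtain ⟨ψ, hψ⟩ := hom_extend hQ _ ρ'
  refine ⟨ψ.comp (QuotientGroup.mk' N), ?_, ?_⟩
  · intro z
    have h := hψ ⟨QuotientGroup.mk' N z, Subgroup.mem_map_of_mem _ z.2⟩
    rw [MonoidHom.comp_apply]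
    refine h.trans (key _ _ (hrep _))
  · intro n hn
    have : QuotientGroup.mk' N n = 1 := (QuotientGroup.eq_one_iff n).2 hn
    rw [MonoidHom.comp_apply, this, map_one]

/-- Separation, through an abelian quotient. -/
theorem exists_sep {F : Type*} [Group F] [Finite F] (N : Subgroup F) [N.Normal]
    (hab : ∀ a b : F, a * b * a⁻¹ * b⁻¹ ∈ N) {x : F} (hx : x ∉ N) :
    ∃ l : F →* ℂˣ, (∀ n ∈ N, l n = 1) ∧ l x ≠ 1 := by
  have hQ := quot_comm N hab
  have hx' : QuotientGroup.mk' N x ∉ (⊥ : Subgroup (F ⧸ N)) := by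
    rw [Subgroup.mem_bot]
    intro h
    exact hx ((QuotientGroup.eq_one_iff x).1 h)
  obtain ⟨φ, -, hφ⟩ := hom_sep hQ ⊥ hx'
  refine ⟨φ.comp (QuotientGroup.mk' N), ?_, hφ⟩
  intro n hn
  have : QuotientGroup.mk' N n = 1 := (QuotientGroup.eq_one_iff n).2 hn
  rw [MonoidHom.comp_apply, this, map_one]

variable {A : Type u} [Group A]

/-- `A''` lies in the radical. -/
theorem mem_Rmu_of_D2 (hcl : ClassTwo A) (μ : D2 A →* ℂˣ) (e : commutator A) (he : (e : A) ∈ D2 A) :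
    e ∈ Rmu hcl μ := by
  intro w
  have : cm e w = 1 := by
    apply Subtype.ext
    have h := hcl _ he _ w.2
    simp only [cm_coe, Subgroup.coe_one]
    rw [h]
    group
  rw [this, map_one]

theorem ext_val {hcl : ClassTwo A} {μ : D2 A →* ℂˣ} {ζ : Rmu hcl μ →* ℂˣ} (h : Ext ζ)
    (z : Rmu hcl μ) (hz : (((z : commutator A)) : A) ∈ D2 A) : ζ z = μ ⟨_, hz⟩ :=
  h ⟨_, hz⟩ z.2

/-- A conjugate of an element of the radical by an element of `F`. -/
theorem conj_F_mem {hcl : ClassTwo A} {μ : D2 A →* ℂˣ} (f : commutator A) (y : Rmu hcl μ) :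
    conjF (f : A) (y : commutator A) ∈ Rmu hcl μ := by
  have h : conjF (f : A) (y : commutator A)
      = (⟨cm f y, D2_le (cm f y).2⟩ : commutator A) * y := by
    apply Subtype.ext
    simp only [conjF_coe, Subgroup.coe_mul, cm_coe]
    group
  rw [h]
  exact (Rmu hcl μ).mul_mem (mem_Rmu_of_D2 hcl μ _ (cm f y).2) y.2

/-- `μ ([f, y]) = 1`. -/
theorem mu_cm_eq_one {hcl : ClassTwo A} {μ : D2 A →* ℂˣ} (f : commutator A) (y : Rmu hcl μ) :
    μ (cm f y) = 1 := by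
  have h1 : cm f (y : commutator A) = (cm (y : commutator A) f)⁻¹ := by
    apply Subtype.ext
    simp only [cm_coe, Subgroup.coe_inv, mul_inv_rev, inv_inv]
    group
  rw [h1, map_inv, y.2 f, inv_one]

/-- `F` acts trivially on the extensions of `μ`. -/
theorem ext_conj_F {hcl : ClassTwo A} {μ : D2 A →* ℂˣ} {ζ : Rmu hcl μ →* ℂˣ} (h : Ext ζ)
    (f : commutator A) (y : Rmu hcl μ) : ζ ⟨_, conj_F_mem f y⟩ = ζ y := by
  have hm : (⟨(⟨cm f y, D2_le (cm f y).2⟩ : commutator A), mem_Rmu_of_D2 hcl μ _ (cm f y).2⟩ :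
      Rmu hcl μ) * y = ⟨_, conj_F_mem f y⟩ := by
    apply Subtype.ext
    apply Subtype.ext
    simp only [conjF_coe, Subgroup.coe_mul, cm_coe]
    group
  rw [← hm, map_mul]
  have h2 := ext_val h (⟨(⟨cm f y, D2_le (cm f y).2⟩ : commutator A),
    mem_Rmu_of_D2 hcl μ _ (cm f y).2⟩ : Rmu hcl μ) (cm f y).2
  rw [h2]
  have h3 : μ ⟨_, (cm f y).2⟩ = 1 := mu_cm_eq_one f y
  rw [h3, one_mul]

theorem conjF_mul (g h : A) (z : commutator A) : conjF (g * h) z = conjF g (conjF h z) := by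
  apply Subtype.ext
  simp [mul_assoc]

theorem conjF_one (z : commutator A) : conjF (1 : A) z = z := by
  apply Subtype.ext
  simp

/-- Powers keep fixing. -/
theorem Fixes_pow {hcl : ClassTwo A} {μ : D2 A →* ℂˣ} {ζ : Rmu hcl μ →* ℂˣ} {g : A}
    (hf : Fixes g ζ) (n : ℕ) : Fixes (g ^ n) ζ := by
  induction n with
  | zero =>
    intro z
    have hz : conjF (g ^ 0) (z : commutator A) = z := by rw [pow_zero, conjF_one]
    refine ⟨by rw [hz]; exact z.2, ?_⟩
    congr 1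
    exact Subtype.ext hz
  | succ n ih =>
    intro z
    obtain ⟨h1, h2⟩ := ih z
    obtain ⟨h3, h4⟩ := hf ⟨_, h1⟩
    have hz : conjF (g ^ (n + 1)) (z : commutator A) = conjF g (conjF (g ^ n) (z : commutator A)) := by
      rw [pow_succ', conjF_mul]
    refine ⟨by rw [hz]; exact h3, ?_⟩
    rw [← h2, ← h4]
    congr 1
    exact Subtype.ext hz

variable [Finite A] {α : A ≃* A}

/-- (U) uniqueness. -/
theorem uniq_of_fixed {r : ℕ} (st : Struct α r) (hcl : ClassTwo A) {μ : D2 A →* ℂˣ}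
    (ζ ζ' : Rmu hcl μ →* ℂˣ) (h : Ext ζ) (h' : Ext ζ') {g : A} (hg : rho g ≠ 1)
    (hc : (orderOf g).Coprime r) (hf : Fixes g ζ) (hf' : Fixes g ζ') : ζ = ζ' := by
  let ρ : Rmu hcl μ →* ℂˣ := ζ * ζ'⁻¹
  have hρ : ∀ z, ρ z = ζ z * (ζ' z)⁻¹ := fun z => rfl
  have hρE : ∀ z : Rmu hcl μ, (((z : commutator A)) : A) ∈ D2 A → ρ z = 1 := by
    intro z hz
    rw [hρ, ext_val h z hz, ext_val h' z hz, mul_inv_cancel]
  have hρfix : Fixes g ρ := by
    intro z
    obtain ⟨h1, h2⟩ := hf z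
    obtain ⟨h3, h4⟩ := hf' z
    refine ⟨h1, ?_⟩
    rw [hρ, hρ, h2, h4]
  -- extension of `ρ`
  obtain ⟨l, hl, -⟩ := exists_extend ((D2 A).subgroupOf (commutator A))
    (fun a b => by
      rw [Subgroup.mem_subgroupOf]
      exact Subgroup.commutator_mem_commutator a.2 b.2)
    (Rmu hcl μ) ρ (fun z hz => hρE z hz)
  -- the norm
  let f : ℕ → Sd A := fun i => rho (g⁻¹ ^ i) l
  let L : Sd A := (Finset.range (orderOf g)).prod f
  have hfs : ∀ i, rho g⁻¹ (f i) = f (i + 1) := by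
    intro i
    show rho g⁻¹ (rho (g⁻¹ ^ i) l) = rho (g⁻¹ ^ (i + 1)) l
    rw [pow_succ', map_mul, MulAut.mul_apply]
  have hfm : f (orderOf g) = f 0 := by
    show rho (g⁻¹ ^ orderOf g) l = rho (g⁻¹ ^ 0) l
    rw [inv_pow, pow_orderOf_eq_one, inv_one, pow_zero]
  have hLfix : rho g⁻¹ L = L := by
    show rho g⁻¹ ((Finset.range (orderOf g)).prod f) = _
    rw [map_prod, Finset.prod_congr rfl (fun i _ => hfs i)]
    have h1 := Finset.prod_range_succ f (orderOf g)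
    have h2 := Finset.prod_range_succ' f (orderOf g)
    rw [h1, hfm] at h2
    exact (mul_right_cancel h2).symm
  have hL1 : L = 1 := by
    by_contra hL
    have h2 := st.stab g⁻¹ L hL hLfix
    rw [map_inv, inv_eq_one] at h2
    exact hg h2
  -- evaluation
  have hval : ∀ z : Rmu hcl μ, (ρ z) ^ (orderOf g) = 1 := by
    intro z
    have h1 : L (z : commutator A) = 1 := by rw [hL1]; rfl
    have h2 : L (z : commutator A) = (Finset.range (orderOf g)).prod (fun i => f i (z : commutator A)) :=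
      MonoidHom.finset_prod_apply _ _ _
    have h3 : ∀ i, f i (z : commutator A) = ρ z := by
      intro i
      show rho (g⁻¹ ^ i) l (z : commutator A) = ρ z
      rw [rho_apply]
      have h4 : (g⁻¹ ^ i)⁻¹ = g ^ i := by rw [inv_pow, inv_inv]
      rw [h4]
      obtain ⟨h5, h6⟩ := Fixes_pow hρfix i z
      have h7 := hl ⟨_, h5⟩
      rw [← h6, ← h7]
    rw [h2] at h1
    simp only [h3] at h1
    simpa using h1
  have hvalr : ∀ z : Rmu hcl μ, (ρ z) ^ r = 1 := by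
    intro z
    rw [← hl z, ← MonoidHom.pow_apply, st.exp l]
    rfl
  have hone : ∀ z, ρ z = 1 := by
    intro z
    have h1 := pow_gcd_eq_one.2 ⟨hval z, hvalr z⟩
    rw [Nat.Coprime] at hc
    rwa [hc, pow_one] at h1
  ext z
  have h2 := hone z
  rw [hρ] at h2
  have h3 := mul_inv_eq_one.1 h2
  rw [h3]

/-- The conjugate of `ζ` by `g`, when `g` stabilizes `R`. -/
def conjHom {hcl : ClassTwo A} {μ : D2 A →* ℂˣ} {g : A} (hs : ∀ z : Rmu hcl μ, conjF g (z : commutator A) ∈ Rmu hcl μ)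
    (ζ : Rmu hcl μ →* ℂˣ) : Rmu hcl μ →* ℂˣ :=
  MonoidHom.mk' (fun z => ζ ⟨_, hs z⟩) (by
    intro a b
    rw [← map_mul]
    congr 1
    apply Subtype.ext
    simp)

theorem conjHom_apply {hcl : ClassTwo A} {μ : D2 A →* ℂˣ} {g : A}
    (hs : ∀ z : Rmu hcl μ, conjF g (z : commutator A) ∈ Rmu hcl μ)
    (ζ : Rmu hcl μ →* ℂˣ) (z : Rmu hcl μ) : conjHom hs ζ z = ζ ⟨_, hs z⟩ := rfl

theorem ext_unique_aux {r : ℕ} (st : Struct α r) (hcl : ClassTwo A) {μ : D2 A →* ℂˣ}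
    (ζ₁ ζ₂ : Rmu hcl μ →* ℂˣ) (h₁ : Ext ζ₁) (h₂ : Ext ζ₂) {g₁ g₂ : A} (hg₁ : rho g₁ ≠ 1)
    (hg₂ : rho g₂ ≠ 1) (hc₁ : (orderOf g₁).Coprime r) (hc₂ : (orderOf g₂).Coprime r)
    (hf₁ : Fixes g₁ ζ₁) (hf₂ : Fixes g₂ ζ₂) : ζ₁ = ζ₂ := by
  have hs₂ : ∀ z : Rmu hcl μ, conjF g₂ (z : commutator A) ∈ Rmu hcl μ := fun z => (hf₂ z).1
  have hs₁ : ∀ z : Rmu hcl μ, conjF g₁ (z : commutator A) ∈ Rmu hcl μ := fun z => (hf₁ z).1
  let ζ₃ := conjHom hs₂ ζ₁
  -- `ζ₃` extends `μ`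
  have hE₃ : Ext ζ₃ := by
    intro e he
    have he' : ((conjF g₂ (⟨e, D2_le e.2⟩ : commutator A) : commutator A) : A) ∈ D2 A := by
      simp only [conjF_coe]
      exact (inferInstance : (D2 A).Normal).conj_mem _ e.2 _
    have h5 := ext_val h₁ ⟨_, hs₂ ⟨⟨e, D2_le e.2⟩, he⟩⟩ he'
    have h6 := ext_val h₂ ⟨_, hs₂ ⟨⟨e, D2_le e.2⟩, he⟩⟩ he'
    obtain ⟨h7, h8⟩ := hf₂ ⟨⟨e, D2_le e.2⟩, he⟩
    have h9 := ext_val h₂ ⟨⟨e, D2_le e.2⟩, he⟩ e.2
    rw [conjHom_apply, h5, ← h6, h8, h9]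
  -- `ζ₃` is fixed by `g₁`
  have hF₃ : Fixes g₁ ζ₃ := by
    intro z
    refine ⟨hs₁ z, ?_⟩
    rw [conjHom_apply, conjHom_apply]
    -- `y = g₁ (g₂ z g₂⁻¹) g₁⁻¹`
    let w : Rmu hcl μ := ⟨_, hs₂ z⟩
    obtain ⟨h7, h8⟩ := hf₁ w
    let y : Rmu hcl μ := ⟨_, h7⟩
    let f : commutator A := ⟨g₂ * g₁ * g₂⁻¹ * g₁⁻¹,
      Subgroup.commutator_mem_commutator (Subgroup.mem_top _) (Subgroup.mem_top _)⟩
    have h9 := ext_conj_F h₁ f y
    have h10 : (⟨_, hs₂ ⟨_, hs₁ z⟩⟩ : Rmu hcl μ) = ⟨_, conj_F_mem f y⟩ := by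
      apply Subtype.ext
      apply Subtype.ext
      simp only [conjF_coe]
      show g₂ * (g₁ * _ * g₁⁻¹) * g₂⁻¹ = (g₂ * g₁ * g₂⁻¹ * g₁⁻¹) * (g₁ * (g₂ * _ * g₂⁻¹) * g₁⁻¹) * (g₂ * g₁ * g₂⁻¹ * g₁⁻¹)⁻¹
      group
    rw [h10, h9]
    exact h8
  have h34 : ζ₃ = ζ₁ := uniq_of_fixed st hcl ζ₃ ζ₁ hE₃ h₁ hg₁ hc₁ hF₃ hf₁
  have hF₁₂ : Fixes g₂ ζ₁ := by
    intro z
    refine ⟨hs₂ z, ?_⟩
    rw [← conjHom_apply hs₂ ζ₁ z]
    exact DFunLike.congr_fun h34 z
  exact uniq_of_fixed st hcl ζ₁ ζ₂ h₁ h₂ hg₂ hc₂ hF₁₂ hf₂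

end ClassTwoA

variable {A : Type u} [Group A] [Finite A] {α : A ≃* A}

theorem ext_unique {r : ℕ} (st : Struct α r) (hcl : ClassTwo A) {μ : D2 A →* ℂˣ}
    (ζ₁ ζ₂ : Rmu hcl μ →* ℂˣ) (h₁ : Ext ζ₁) (h₂ : Ext ζ₂) {g₁ g₂ : A} (hg₁ : rho g₁ ≠ 1)
    (hg₂ : rho g₂ ≠ 1) (hc₁ : (orderOf g₁).Coprime r) (hc₂ : (orderOf g₂).Coprime r)
    (hf₁ : Fixes g₁ ζ₁) (hf₂ : Fixes g₂ ζ₂) : ζ₁ = ζ₂ :=
  ClassTwoA.ext_unique_aux st hcl ζ₁ ζ₂ h₁ h₂ hg₁ hg₂ hc₁ hc₂ hf₁ hf₂

theorem Rmu_le_of_unique (hcl : ClassTwo A) {μ : D2 A →* ℂˣ}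
    (huniq : ∀ ζ₁ ζ₂ : Rmu hcl μ →* ℂˣ, Ext ζ₁ → Ext ζ₂ → ζ₁ = ζ₂) (z : commutator A)
    (hz : z ∈ Rmu hcl μ) : (z : A) ∈ D2 A := by
  by_contra hzE
  -- the subgroup `E` inside `R`
  let ER : Subgroup (Rmu hcl μ) := ((D2 A).subgroupOf (commutator A)).subgroupOf (Rmu hcl μ)
  have hmemER : ∀ x : Rmu hcl μ, x ∈ ER ↔ (((x : commutator A)) : A) ∈ D2 A := fun x => Iff.rfl
  let ρ : ER →* ℂˣ := MonoidHom.mk' (fun s => μ ⟨_, (hmemER _).1 s.2⟩) (by
    intro a b
    rw [← map_mul]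
    rfl)
  have hρ : ∀ (s : ER), ρ s = μ ⟨_, (hmemER _).1 s.2⟩ := fun s => rfl
  let N : Subgroup (Rmu hcl μ) := (ρ.ker).map ER.subtype
  have hcentral : ∀ (n : Rmu hcl μ) (_ : (((n : commutator A)) : A) ∈ D2 A) (a : Rmu hcl μ),
      a * n * a⁻¹ = n := by
    intro n hn a
    apply Subtype.ext
    apply Subtype.ext
    have h := hcl _ hn _ (a : commutator A).2
    simp only [Subgroup.coe_mul, Subgroup.coe_inv]
    rw [← h]
    group
  haveI hNn : N.Normal := ⟨fun n hn a => by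
    obtain ⟨s, _, rfl⟩ := Subgroup.mem_map.1 hn
    have : a * ER.subtype s * a⁻¹ = ER.subtype s := hcentral _ ((hmemER _).1 s.2) a
    rw [this]
    exact hn⟩
  have hNab : ∀ a b : Rmu hcl μ, a * b * a⁻¹ * b⁻¹ ∈ N := by
    intro a b
    have hmem : a * b * a⁻¹ * b⁻¹ ∈ ER := (cm (a : commutator A) (b : commutator A)).2
    refine Subgroup.mem_map.2 ⟨⟨_, hmem⟩, ?_, rfl⟩
    rw [MonoidHom.mem_ker, hρ]
    exact a.2 (b : commutator A)
  obtain ⟨l, hl, -⟩ := ClassTwoA.exists_extend N hNab ER ρ (by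
    intro s hs
    obtain ⟨s', hs', he⟩ := Subgroup.mem_map.1 hs
    have : s' = s := Subtype.ext he
    rw [← this]
    exact hs')
  have hl1 : Ext l := by
    intro e he
    have hmem : (⟨⟨e, D2_le e.2⟩, he⟩ : Rmu hcl μ) ∈ ER := e.2
    exact hl ⟨_, hmem⟩
  -- separation
  haveI hERn : ER.Normal := inferInstance
  obtain ⟨l₂, hl₂, hl₂z⟩ := ClassTwoA.exists_sep ER
    (x := (⟨z, hz⟩ : Rmu hcl μ))
    (fun a b => (cm (a : commutator A) (b : commutator A)).2) (fun h => hzE h)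
  have hl3 : Ext (l * l₂) := by
    intro e he
    have hmem : (⟨⟨e, D2_le e.2⟩, he⟩ : Rmu hcl μ) ∈ ER := e.2
    rw [MonoidHom.mul_apply, hl₂ _ hmem, mul_one]
    exact hl1 e he
  have heq := huniq l (l * l₂) hl1 hl3
  have h1 := DFunLike.congr_fun heq (⟨z, hz⟩ : Rmu hcl μ)
  rw [MonoidHom.mul_apply] at h1
  exact hl₂z (mul_eq_left.1 h1.symm)

theorem card_D2_lt (hcl : ClassTwo A)
    (hR : ∀ μ : D2 A →* ℂˣ, μ ≠ 1 → ∀ z ∈ Rmu hcl μ, (z : A) ∈ D2 A) (hne : D2 A ≠ commutator A) :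
    Nat.card (D2 A) < Nat.card (Sd A) := by
  obtain ⟨z, hzF, hzE⟩ : ∃ z ∈ commutator A, z ∉ D2 A := by
    by_contra hcon
    push Not at hcon
    exact hne (le_antisymm D2_le hcon)
  let z' : commutator A := ⟨z, hzF⟩
  have habE : ∀ a b : D2 A, a * b = b * a := fun a b => Subtype.ext (hcl a a.2 b (D2_le b.2))
  let φ : commutator A →* D2 A := MonoidHom.mk' (fun w => cm z' w) (by
    intro a b
    apply Subtype.ext
    have hc : (cm z' b : A) * (a : A)⁻¹ = (a : A)⁻¹ * (cm z' b : A) :=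
      hcl _ (cm z' b).2 _ ((commutator A).inv_mem a.2)
    simp only [Subgroup.coe_mul, cm_coe, mul_inv_rev] at hc ⊢
    calc (z' : A) * (a * b) * (z' : A)⁻¹ * ((b : A)⁻¹ * (a : A)⁻¹)
        = (z' : A) * a * (z' : A)⁻¹ * (((z' : A) * b * (z' : A)⁻¹ * (b : A)⁻¹) * (a : A)⁻¹) := by
          group
      _ = (z' : A) * a * (z' : A)⁻¹ * ((a : A)⁻¹ * ((z' : A) * b * (z' : A)⁻¹ * (b : A)⁻¹)) := by
          rw [hc]
      _ = _ := by group)
  have hφ : ∀ w, φ w = cm z' w := fun w => rfl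
  have hsurj : Function.Surjective φ := by
    by_contra hns
    have hns' : ∃ e, e ∉ φ.range := by
      by_contra hcon
      push Not at hcon
      exact hns (fun e => hcon e)
    obtain ⟨e, he⟩ := hns'
    obtain ⟨μ, hμ, hμe⟩ := ClassTwoA.hom_sep habE φ.range he
    have hμ1 : μ ≠ 1 := fun h => hμe (by rw [h]; rfl)
    have hz' : z' ∈ Rmu hcl μ := fun w => hμ _ ⟨w, rfl⟩
    exact hzE (hR μ hμ1 z' hz')
  -- cardinalities
  have hcardE : Nat.card (commutator (commutator A)) = Nat.card (D2 A) := by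
    have h := Subgroup.map_subtype_commutator (commutator A)
    have h2 : Nat.card ((commutator (commutator A)).map (commutator A).subtype) =
        Nat.card (commutator (commutator A)) :=
      Subgroup.card_map_of_injective (commutator A).subtype_injective
    rw [← h2, h]
    rfl
  have hker : Nat.card φ.ker * Nat.card (D2 A) = Nat.card (commutator A) := by
    have h1 := Subgroup.card_mul_index φ.ker
    rw [Subgroup.index_ker] at h1
    rw [MonoidHom.range_eq_top.2 hsurj, Subgroup.card_top] at h1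
    exact h1
  have hab : Nat.card (commutator (commutator A)) * Nat.card (Abelianization (commutator A)) =
      Nat.card (commutator A) := by
    have h1 := Subgroup.card_mul_index (commutator (commutator A))
    rw [Subgroup.index_eq_card] at h1
    exact h1
  have hdual : Nat.card (Sd A) = Nat.card (Abelianization (commutator A)) := by
    have h1 : Nat.card (Sd A) = Nat.card (Abelianization (commutator A) →* ℂˣ) :=
      Nat.card_congr Abelianization.lift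
    rw [h1]
    exact CommGroup.card_monoidHom_of_hasEnoughRootsOfUnity _ ℂ
  have hle : commutator (commutator A) ≤ φ.ker := by
    show ⁅(⊤ : Subgroup (commutator A)), ⊤⁆ ≤ φ.ker
    rw [Subgroup.commutator_le]
    intro a _ b _
    rw [MonoidHom.mem_ker, map_commutatorElement, commutatorElement_eq_one_iff_mul_comm]
    exact habE _ _
  have hzk : z' ∈ φ.ker := by
    rw [MonoidHom.mem_ker, hφ]
    apply Subtype.ext
    simp [cm_coe]
  have hznot : z' ∉ commutator (commutator A) := by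
    intro h
    have h2 : (z' : A) ∈ (commutator (commutator A)).map (commutator A).subtype :=
      Subgroup.mem_map_of_mem _ h
    rw [Subgroup.map_subtype_commutator] at h2
    exact hzE h2
  have hlt : Nat.card (commutator (commutator A)) < Nat.card φ.ker := by
    have hss : ((commutator (commutator A) : Subgroup _) : Set (commutator A)) ⊂ (φ.ker : Set _) :=
      ⟨hle, fun h => hznot (h hzk)⟩
    have h3 := Set.ncard_lt_ncard hss (Set.toFinite _)
    rw [← Nat.card_coe_set_eq, ← Nat.card_coe_set_eq] at h3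
    exact h3
  have hpos : 0 < Nat.card (D2 A) := Nat.card_pos
  have heq : Nat.card φ.ker = Nat.card (Abelianization (commutator A)) := by
    have h5 : Nat.card φ.ker * Nat.card (D2 A) =
        Nat.card (Abelianization (commutator A)) * Nat.card (D2 A) := by
      rw [hker, ← hab, hcardE, mul_comm]
    exact Nat.eq_of_mul_eq_mul_right hpos h5
  rw [hdual, ← heq, ← hcardE]
  exact hlt

end Cfsg.Agent.Lib.NoDiv
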