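import Mathlib
import Cfsg.Agent.Lib.NoDiv.ClassTwoDefs
import Cfsg.Agent.Lib.NoDiv.StructDefs
import Cfsg.Agent.Lib.Char.CliffordCorr
import Cfsg.Agent.Lib.Char.ItoMichler
import Cfsg.Agent.Lib.Char.Monomial
import Cfsg.Agent.Lib.Char.LinearChars
import Cfsg.Agent.Lib.Blocks.HeightZero

/-!
# A `r'`-element outside the kernel fixing an extension `ζ` of `μ`
-/

set_option autoImplicit false
set_option linter.unusedSectionVars false
set_option linter.unusedVariables false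
set_option linter.style.haveILetI false

namespace Cfsg.Agent.Lib.NoDiv

open Cfsg

universe u

variable {A : Type u} [Group A]

namespace ClassTwoB

/-- Elements of `A''` lie in the radical. -/
theorem mem_Rmu_of_D2 (hcl : ClassTwo A) (μ : D2 A →* ℂˣ) (e : commutator A) (he : (e : A) ∈ D2 A) :
    e ∈ Rmu hcl μ := by
  intro w
  have h1 : cm e w = 1 := by
    apply Subtype.ext
    have h2 := hcl _ he _ w.2
    simp only [cm_coe, OneMemClass.coe_one]
    rw [h2]
    group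
  rw [h1, map_one]

theorem cm_swap (z w : commutator A) : cm w z = (cm z w)⁻¹ := by
  apply Subtype.ext
  simp only [cm_coe, InvMemClass.coe_inv]
  group

/-- The decomposition `f z f⁻¹ = [f, z] z`. -/
theorem conj_eq (f z : commutator A) :
    f * z * f⁻¹ = (⟨(cm f z : A), D2_le (cm f z).2⟩ : commutator A) * z := by
  apply Subtype.ext
  simp only [Subgroup.coe_mul, cm_coe, InvMemClass.coe_inv]
  group

instance Rmu_normal (hcl : ClassTwo A) (μ : D2 A →* ℂˣ) : (Rmu hcl μ).Normal where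
  conj_mem := by
    intro z hz f
    rw [conj_eq]
    exact (Rmu hcl μ).mul_mem (mem_Rmu_of_D2 hcl μ _ (cm f z).2) hz

theorem zeta_conj (hcl : ClassTwo A) {μ : D2 A →* ℂˣ} (ζ : Rmu hcl μ →* ℂˣ) (hζ : Ext ζ)
    (f : commutator A) (z : Rmu hcl μ) :
    ζ ⟨f * (z : commutator A) * f⁻¹, (Rmu_normal hcl μ).conj_mem _ z.2 f⟩ = ζ z := by
  have hc : (⟨(cm f (z : commutator A) : A), D2_le (cm f (z : commutator A)).2⟩ : commutator A) ∈
      Rmu hcl μ := mem_Rmu_of_D2 hcl μ _ (cm f (z : commutator A)).2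
  have h1 : (⟨f * (z : commutator A) * f⁻¹, (Rmu_normal hcl μ).conj_mem _ z.2 f⟩ : Rmu hcl μ) =
      ⟨_, hc⟩ * z := by
    apply Subtype.ext
    exact conj_eq f z
  rw [h1, map_mul]
  have h2 : ζ ⟨_, hc⟩ = μ (cm f (z : commutator A)) := hζ (cm f (z : commutator A)) hc
  rw [h2, cm_swap, map_inv, z.2 f, inv_one, one_mul]

/-- A homomorphism of `A'` to `ℂˣ` is trivial on `A''`. -/
theorem hom_trivial (φ : commutator A →* ℂˣ) (e : commutator A) (he : (e : A) ∈ D2 A) : φ e = 1 := by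
  have h1 : D2 A ≤ (φ.ker).map (commutator A).subtype := by
    unfold D2
    rw [Subgroup.commutator_le]
    intro x hx y hy
    refine ⟨(⟨x, hx⟩ : commutator A) * ⟨y, hy⟩ * (⟨x, hx⟩ : commutator A)⁻¹ * (⟨y, hy⟩ : commutator A)⁻¹,
      ?_, by simp [commutatorElement_def]⟩
    show _ ∈ φ.ker
    rw [MonoidHom.mem_ker, map_mul, map_mul, map_mul, map_inv, map_inv]
    rw [mul_comm (φ ⟨x, hx⟩) (φ ⟨y, hy⟩)]
    group
  obtain ⟨e', he', h2⟩ := h1 he
  have h3 : e' = e := Subtype.ext h2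
  rw [← h3]
  exact he'

variable [Finite A]

open Cfsg.Agent.Lib.Char Cfsg.Agent.Lib.Char.Basic Cfsg.Agent.Lib.Char.Ortho

/-- The irreducible character of `A'` over `ζ`. -/
theorem exists_psi {α : A ≃* A} {r : ℕ} (st : Struct α r) (hcl : ClassTwo A) {μ : D2 A →* ℂˣ}
    (hμ : μ ≠ 1) (ζ : Rmu hcl μ →* ℂˣ) (hζ : Ext ζ) [Fintype (commutator A)] :
    ∃ ψ : commutator A → ℂ, IsIrrCharacter (commutator A) ψ ∧ r ∣ charDegree ψ ∧
      ∀ z : Rmu hcl μ, ψ z = ψ 1 * ((ζ z : ℂˣ) : ℂ) := by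
  classical
  letI : Fintype (Rmu hcl μ) := Fintype.ofFinite _
  let ϑ : Rmu hcl μ → ℂ := fun z => ((ζ z : ℂˣ) : ℂ)
  have hϑ : IsIrrCharacter _ ϑ := LinearChars.isIrr_of_hom ζ
  obtain ⟨ψ, hψ, hne⟩ := ItoMichler.exists_irr_over (Rmu hcl μ) hϑ
  have horb : Clifford.orbitSet (Rmu hcl μ) ϑ = {ϑ} := by
    ext x
    constructor
    · rintro ⟨g, rfl⟩
      funext z
      show ((ζ ⟨g * (z : commutator A) * g⁻¹, _⟩ : ℂˣ) : ℂ) = ((ζ z : ℂˣ) : ℂ)
      rw [zeta_conj hcl ζ hζ]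
    · rintro rfl
      exact Clifford.mem_orbitSet_self _ _
  have hres := Clifford.res_eq_smul_finsum (Rmu hcl μ) hψ hϑ hne
  rw [horb, finsum_mem_singleton] at hres
  set c := classInner (fun n : Rmu hcl μ => ψ n) ϑ with hc
  have hz : ∀ z : Rmu hcl μ, ψ z = c * ϑ z := fun z => congrFun hres z
  have h1 : ψ 1 = c := by
    have := hz 1
    simpa [ϑ] using this
  have hnl : charDegree ψ ≠ 1 := by
    intro hd
    have h2 : ψ 1 = 1 := by
      have := Values.IsCharacter.charDegree_cast (isCharacter_of_isIrrCharacter hψ)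
      rw [hd] at this
      simpa using this.symm
    obtain ⟨φ, hφ⟩ := LinearChars.exists_hom_of_isCharacter_one (isCharacter_of_isIrrCharacter hψ) h2
    apply hμ
    ext e
    have he : (⟨(e : A), D2_le e.2⟩ : commutator A) ∈ Rmu hcl μ :=
      mem_Rmu_of_D2 hcl μ _ e.2
    have h3 := hz ⟨_, he⟩
    have h4 : ζ ⟨_, he⟩ = μ e := hζ e he
    have h5 : ϑ ⟨_, he⟩ = ((μ e : ℂˣ) : ℂ) := by
      simp only [ϑ]
      rw [h4]
    rw [h5, ← h1, h2, one_mul] at h3
    rw [hφ] at h3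
    simp only at h3
    rw [hom_trivial φ _ e.2] at h3
    simpa using h3.symm
  have hdvd : r ∣ charDegree ψ := by
    haveI : Fact r.Prime := ⟨st.hr⟩
    have h2 : charDegree ψ ∣ Nat.card (commutator A) := Blocks.HeightZero.charDegree_dvd_card hψ
    obtain ⟨n, hn⟩ := IsPGroup.iff_card.1 st.pF
    rw [hn] at h2
    obtain ⟨i, _, hi⟩ := (Nat.dvd_prime_pow st.hr).1 h2
    rw [hi]
    have hi0 : i ≠ 0 := by
      rintro rfl
      exact hnl (by simpa using hi)
    exact dvd_pow_self r hi0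
  exact ⟨ψ, hψ, hdvd, fun z => by rw [h1]; exact hz z⟩

end ClassTwoB

open ClassTwoB
open Cfsg.Agent.Lib.Char Cfsg.Agent.Lib.Char.Basic Cfsg.Agent.Lib.Char.Ortho in
theorem exists_fixing [Finite A] {α : A ≃* A} {s k r : ℕ} (h : MHyp α s k) (st : Struct α r) (hcl : ClassTwo A)
    (hdeg : ∃ θ : IrrCharacter A, 1 < charDegree (θ : A → ℂ) ∧
      charDegree (θ : A → ℂ) = (rho (A := A)).ker.index)
    {μ : D2 A →* ℂˣ} (hμ : μ ≠ 1) (ζ : Rmu hcl μ →* ℂˣ) (hζ : Ext ζ) :
    ∃ g : A, rho g ≠ 1 ∧ (orderOf g).Coprime r ∧ Fixes g ζ := by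
  classical
  letI : Fintype A := Fintype.ofFinite A
  letI : Fintype (commutator A) := Fintype.ofFinite _
  obtain ⟨ψ, hψ, hdvd, hψz⟩ := exists_psi st hcl hμ ζ hζ
  obtain ⟨θ, hθ, hne⟩ := ItoMichler.exists_irr_over (commutator A) hψ
  let T := Monomial.inertiaOf (commutator A) ψ
  have happ := CliffordCorr.apply_one_eq (commutator A) ψ T hψ (Monomial.mem_inertiaOf _ _) hθ hne
  obtain ⟨e, he⟩ := exists_nat_classInner_of_isCharacter
    (isCharacter_restrict (isCharacter_of_isIrrCharacter hθ) (commutator A))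
    (isCharacter_of_isIrrCharacter hψ)
  obtain ⟨d, hd⟩ := exists_degree_of_isCharacter (isCharacter_of_isIrrCharacter hψ)
  have hψd : charDegree ψ = d :=
    Values.IsCharacter.charDegree_eq (isCharacter_of_isIrrCharacter hψ) hd
  rw [he, hd] at happ
  have hcd : charDegree θ = e * (T.index * d) := by
    apply Values.IsCharacter.charDegree_eq (isCharacter_of_isIrrCharacter hθ)
    rw [happ]
    push_cast
    ring
  have hrθ : r ∣ charDegree θ := by
    rw [hcd]
    rw [hψd] at hdvd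
    exact Dvd.dvd.mul_left (Dvd.dvd.mul_left hdvd _) _
  have hTθ : T.index ∣ charDegree θ := by
    rw [hcd]
    exact Dvd.dvd.mul_left (Dvd.intro _ rfl) _
  have hTJ : ¬ T ≤ (rho (A := A)).ker := by
    intro hle
    obtain ⟨θ₀, h1, h2⟩ := hdeg
    have h3 : charDegree (θ₀ : A → ℂ) ∣ charDegree θ := by
      rw [h2]
      exact (Subgroup.index_dvd_of_le hle).trans hTθ
    have h4 := h.nodiv θ₀ ⟨θ, hθ⟩ h1 h3
    apply st.cop
    rw [← h2, h4]
    exact hrθ
  obtain ⟨g₀, hg₀T, hg₀J⟩ := SetLike.not_le_iff_exists.1 hTJ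
  have hn : orderOf g₀ ≠ 0 := (orderOf_pos g₀).ne'
  let a := (orderOf g₀).factorization r
  have hcopr : Nat.Coprime (r ^ a) (rho (A := A)).ker.index :=
    Nat.Coprime.pow_left a ((Nat.Prime.coprime_iff_not_dvd st.hr).2 st.cop)
  refine ⟨g₀ ^ (r ^ a), ?_, ?_, ?_⟩
  · intro h1
    apply hg₀J
    rw [MonoidHom.mem_ker]
    rw [map_pow] at h1
    have h2 : (rho g₀) ^ (rho (A := A)).ker.index = 1 := by
      have := Subgroup.pow_index_mem (rho (A := A)).ker g₀
      rw [MonoidHom.mem_ker, map_pow] at this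
      exact this
    have h3 := pow_gcd_eq_one.2 ⟨h1, h2⟩
    rw [hcopr] at h3
    simpa using h3
  · have h1 : (g₀ ^ (r ^ a)) ^ (ordCompl[r] (orderOf g₀)) = 1 := by
      rw [← pow_mul, Nat.ordProj_mul_ordCompl_eq_self, pow_orderOf_eq_one]
    have h2 := orderOf_dvd_of_pow_eq_one h1
    have h3 : Nat.Coprime (ordCompl[r] (orderOf g₀)) r :=
      (Nat.coprime_ordCompl st.hr hn).symm
    exact Nat.Coprime.coprime_dvd_left h2 h3
  · set g := g₀ ^ (r ^ a) with hg
    have hgT : g ∈ T := T.pow_mem hg₀T _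
    have hgT' := (Monomial.mem_inertiaOf (commutator A) ψ g).1 hgT
    have hψ1 : ψ 1 ≠ 0 := irr_apply_one_ne_zero hψ
    -- invariance on `A''`
    have hE : ∀ e : D2 A, μ ⟨g * (e : A) * g⁻¹, (inferInstance : (D2 A).Normal).conj_mem _ e.2 g⟩ = μ e := by
      intro e
      have he1 : (⟨(e : A), D2_le e.2⟩ : commutator A) ∈ Rmu hcl μ := mem_Rmu_of_D2 hcl μ _ e.2
      let e' : D2 A := ⟨g * (e : A) * g⁻¹, (inferInstance : (D2 A).Normal).conj_mem _ e.2 g⟩
      have he2 : (⟨(e' : A), D2_le e'.2⟩ : commutator A) ∈ Rmu hcl μ := mem_Rmu_of_D2 hcl μ _ e'.2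
      have h1 := hψz ⟨_, he1⟩
      have h2 := hψz ⟨_, he2⟩
      have h3 : ζ ⟨_, he1⟩ = μ e := hζ e he1
      have h4 : ζ ⟨_, he2⟩ = μ e' := hζ e' he2
      rw [h3] at h1
      rw [h4] at h2
      have h5 := hgT' ⟨(e : A), D2_le e.2⟩
      have h6 : ψ ⟨g * (e : A) * g⁻¹, _⟩ = ψ ⟨(e' : A), D2_le e'.2⟩ := rfl
      rw [h6] at h5
      have h7 : ψ ⟨(e' : A), D2_le e'.2⟩ = ψ 1 * ((μ e' : ℂˣ) : ℂ) := h2
      have h8 : ψ ⟨(e : A), D2_le e.2⟩ = ψ 1 * ((μ e : ℂˣ) : ℂ) := h1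
      rw [h7, h8] at h5
      exact Units.ext (mul_left_cancel₀ hψ1 h5)
    intro z
    have hz : conjF g (z : commutator A) ∈ Rmu hcl μ := by
      intro w
      have h1 : cm (conjF g (z : commutator A)) w =
          (⟨g * ((cm (z : commutator A) (conjF g⁻¹ w) : D2 A) : A) * g⁻¹,
            (inferInstance : (D2 A).Normal).conj_mem _ (cm (z : commutator A) (conjF g⁻¹ w)).2 g⟩ : D2 A) := by
        apply Subtype.ext
        simp only [cm_coe, conjF_coe]
        group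
      rw [h1, hE, z.2]
    refine ⟨hz, ?_⟩
    have h1 := hψz ⟨_, hz⟩
    have h2 := hψz z
    have h3 := hgT' (z : commutator A)
    have h4 : (⟨g * ((z : commutator A) : A) * g⁻¹,
        (inferInstance : (commutator A).Normal).conj_mem _ (z : commutator A).2 g⟩ : commutator A) =
        conjF g (z : commutator A) := by
      apply Subtype.ext
      simp
    rw [h4, show ψ (conjF g (z : commutator A)) = ψ 1 * ((ζ ⟨_, hz⟩ : ℂˣ) : ℂ) from h1, h2] at h3
    exact Units.ext (mul_left_cancel₀ hψ1 h3)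

end Cfsg.Agent.Lib.NoDiv
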