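import Mathlib

/-!
# A field-size bound for irreducible commuting automorphism sets

If a commuting multiplicatively closed set `P` of automorphisms of an elementary abelian `r`-group
`S` acts irreducibly and every member satisfies `p ^ (r ^ c) = p`, then `|S| ≤ r ^ c`.
-/

set_option autoImplicit false
set_option linter.style.haveILetI false

namespace Cfsg.Agent.Lib.NoDiv

universe u

namespace FieldBound

variable {S : Type u} [CommGroup S]

/-- An automorphism as an additive endomorphism. -/
def iota (p : MulAut S) : AddMonoid.End (Additive S) := MonoidHom.toAdditive (p.toMonoidHom)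

@[simp] theorem iota_apply (p : MulAut S) (x : Additive S) :
    iota p x = Additive.ofMul (p (Additive.toMul x)) := rfl

theorem iota_mul (p q : MulAut S) : iota (p * q) = iota p * iota q := by
  ext x
  rfl

theorem iota_pow (p : MulAut S) (n : ℕ) : iota (p ^ n) = iota p ^ n := by
  induction n with
  | zero => rfl
  | succ n ih => rw [pow_succ, pow_succ, iota_mul, ih]

/-- A finite domain all of whose elements are roots of `X ^ n - X` has at most `n` elements. -/
theorem card_le_of_frob {K : Type*} [CommRing K] [IsDomain K] [Finite K] {n : ℕ} (hn : 1 < n)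
    (h : ∀ a : K, a ^ n = a) : Nat.card K ≤ n := by
  classical
  letI := Fintype.ofFinite K
  rw [Nat.card_eq_fintype_card]
  have hdeg : (Polynomial.X ^ n - Polynomial.X : Polynomial K).natDegree = n := by
    rw [Polynomial.natDegree_sub_eq_left_of_natDegree_lt]
    · exact Polynomial.natDegree_X_pow n
    · rw [Polynomial.natDegree_X_pow, Polynomial.natDegree_X]
      exact hn
  have hne : (Polynomial.X ^ n - Polynomial.X : Polynomial K) ≠ 0 := by
    intro h0
    rw [h0, Polynomial.natDegree_zero] at hdeg
    omega
  have hsub : (Finset.univ : Finset K) ⊆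
      (Polynomial.X ^ n - Polynomial.X : Polynomial K).roots.toFinset := by
    intro a _
    rw [Multiset.mem_toFinset, Polynomial.mem_roots hne]
    simp [Polynomial.IsRoot, h a]
  calc Fintype.card K = (Finset.univ : Finset K).card := rfl
    _ ≤ _ := Finset.card_le_card hsub
    _ ≤ _ := Multiset.toFinset_card_le _
    _ ≤ _ := Polynomial.card_roots' _
    _ = n := hdeg

end FieldBound

open FieldBound in
theorem card_le_of_irred_pow {S : Type u} [CommGroup S] [Finite S] (P : Set (MulAut S))
    (h1 : (1 : MulAut S) ∈ P) (hmul : ∀ a ∈ P, ∀ b ∈ P, a * b ∈ P)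
    (hcomm : ∀ a ∈ P, ∀ b ∈ P, a * b = b * a) {r c : ℕ} (hr : r.Prime)
    (hexp : ∀ x : S, x ^ r = 1)
    (hirr : ∀ U : Subgroup S, (∀ p ∈ P, ∀ u ∈ U, p u ∈ U) → U = ⊥ ∨ U = ⊤)
    (hpow : ∀ p ∈ P, p ^ (r ^ c) = p) (hc : 0 < c) : Nat.card S ≤ r ^ c := by
  classical
  by_cases hS : Subsingleton S
  · rw [Nat.card_of_subsingleton (1 : S)]
    exact Nat.one_le_pow _ _ hr.pos
  rw [not_subsingleton_iff_nontrivial] at hS
  obtain ⟨v, hv⟩ := exists_ne (1 : S)
  haveI : Fact r.Prime := ⟨hr⟩
  set E := AddMonoid.End (Additive S) with hE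
  haveI : Finite E := by
    have : Function.Injective (fun f : E => (f : Additive S → Additive S)) :=
      DFunLike.coe_injective
    exact Finite.of_injective _ this
  haveI : Nontrivial E := by
    refine ⟨⟨1, 0, ?_⟩⟩
    intro h
    have := DFunLike.congr_fun h (Additive.ofMul v)
    apply hv
    exact Additive.ofMul.injective this
  set P' : Set E := iota '' P with hP'
  have hcomm' : ∀ x ∈ P', ∀ y ∈ P', x * y = y * x := by
    rintro _ ⟨p, hp, rfl⟩ _ ⟨q, hq, rfl⟩
    rw [← iota_mul, ← iota_mul, hcomm p hp q hq]
  set R := Subring.closure P' with hR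
  have hcommR : ∀ a b : R, a * b = b * a := (Subring.isMulCommutative_closure hcomm').is_comm.comm
  letI cR : CommRing R := { (inferInstance : Ring R) with mul_comm := hcommR }
  haveI : Nontrivial R := ⟨⟨1, 0, fun h => one_ne_zero (congrArg Subtype.val h)⟩⟩
  haveI : Finite R := Subtype.finite
  -- the characteristic
  have hzero : (r : R) = 0 := by
    apply Subtype.ext
    have h2 : ((r : R) : E) = (r : E) := rfl
    refine h2.trans ?_
    ext x
    change r • x = 0
    have : (r • x) = Additive.ofMul ((Additive.toMul x) ^ r) := rfl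
    rw [this, hexp]
    rfl
  haveI : CharP R r := by
    have := CharP.ringChar_of_prime_eq_zero hr hzero
    rw [← this]
    exact ringChar.charP R
  -- every element is fixed by the Frobenius power
  have hfrob : ∀ a : R, a ^ (r ^ c) = a := by
    rintro ⟨a, ha⟩
    induction ha using Subring.closure_induction with
    | mem x hx =>
      obtain ⟨p, hp, rfl⟩ := hx
      apply Subtype.ext
      change (iota p) ^ (r ^ c) = iota p
      rw [← iota_pow, hpow p hp]
    | zero =>
      rw [show (⟨0, Subring.zero_mem _⟩ : R) = 0 from rfl, zero_pow (pow_ne_zero _ hr.ne_zero)]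
    | one =>
      rw [show (⟨1, Subring.one_mem _⟩ : R) = 1 from rfl, one_pow]
    | add x y hx hy ihx ihy =>
      have : (⟨x + y, Subring.add_mem _ hx hy⟩ : R) = ⟨x, hx⟩ + ⟨y, hy⟩ := rfl
      rw [this, add_pow_char_pow, ihx, ihy]
    | neg x hx ih =>
      have h3 : (⟨-x, Subring.neg_mem _ hx⟩ : R) = -⟨x, hx⟩ := rfl
      rw [h3]
      have := map_neg (iterateFrobenius R r c) (⟨x, hx⟩ : R)
      rw [iterateFrobenius_def, iterateFrobenius_def, ih] at this
      exact this
    | mul x y hx hy ihx ihy =>
      have : (⟨x * y, Subring.mul_mem _ hx hy⟩ : R) = ⟨x, hx⟩ * ⟨y, hy⟩ := rfl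
      rw [this, mul_pow, ihx, ihy]
  -- members of `R` commute with `P`
  have hcommP : ∀ (a : R) (p : MulAut S), p ∈ P → (a : E) * iota p = iota p * (a : E) := by
    intro a p hp
    have hpR : iota p ∈ R := Subring.subset_closure ⟨p, hp, rfl⟩
    exact congrArg Subtype.val (hcommR a ⟨iota p, hpR⟩)
  -- nonzero members are injective
  have hinj : ∀ a : R, a ≠ 0 → ∀ x : Additive S, (a : E) x = 0 → x = 0 := by
    intro a ha
    let U : Subgroup S :=
      { carrier := {x | (a : E) (Additive.ofMul x) = 0}
        mul_mem' := by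
          intro x y hx hy
          simp only [Set.mem_ofPred_eq] at hx hy ⊢
          rw [ofMul_mul, map_add, hx, hy, add_zero]
        one_mem' := by
          simp only [Set.mem_ofPred_eq]
          exact map_zero _
        inv_mem' := by
          intro x hx
          simp only [Set.mem_ofPred_eq] at hx ⊢
          rw [ofMul_inv, map_neg, hx, neg_zero] }
    have hU : ∀ p ∈ P, ∀ u ∈ U, p u ∈ U := by
      intro p hp u hu
      have h3 := hcommP a p hp
      have h4 := DFunLike.congr_fun h3 (Additive.ofMul u)
      change (a : E) (Additive.ofMul (p u)) = iota p ((a : E) (Additive.ofMul u)) at h4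
      have hu' : (a : E) (Additive.ofMul u) = 0 := hu
      change (a : E) (Additive.ofMul (p u)) = 0
      rw [h4, hu', map_zero]
    rcases hirr U hU with h | h
    · intro x hx
      have : Additive.toMul x ∈ U := hx
      rw [h, Subgroup.mem_bot] at this
      exact this
    · exfalso
      apply ha
      apply Subtype.ext
      ext x
      have : Additive.toMul x ∈ U := by rw [h]; exact Subgroup.mem_top _
      exact this
  -- `R` is a domain
  haveI : IsDomain R := by
    haveI : NoZeroDivisors R := by
      refine ⟨fun {a b} hab => ?_⟩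
      by_contra hcon
      rw [not_or] at hcon
      obtain ⟨ha, hb⟩ := hcon
      apply hb
      apply Subtype.ext
      ext x
      have h3 : ((a * b : R) : E) x = 0 := by rw [hab]; rfl
      exact hinj a ha _ h3
    exact NoZeroDivisors.to_isDomain R
  -- counting the roots of `X ^ (r ^ c) - X`
  have hq : 1 < r ^ c := Nat.one_lt_pow hc.ne' hr.one_lt
  have hcard : Nat.card R ≤ r ^ c := card_le_of_frob hq hfrob
  -- the orbit map is onto
  let U : Subgroup S :=
    { carrier := {x | ∃ a : R, (a : E) (Additive.ofMul v) = Additive.ofMul x}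
      mul_mem' := by
        rintro x y ⟨a, ha⟩ ⟨b, hb⟩
        refine ⟨a + b, ?_⟩
        change (a : E) (Additive.ofMul v) + (b : E) (Additive.ofMul v) = _
        rw [ha, hb, ofMul_mul]
      one_mem' := ⟨0, by
        change (0 : E) (Additive.ofMul v) = _
        rfl⟩
      inv_mem' := by
        rintro x ⟨a, ha⟩
        refine ⟨-a, ?_⟩
        change -((a : E) (Additive.ofMul v)) = _
        rw [ha, ofMul_inv] }
  have hU : ∀ p ∈ P, ∀ u ∈ U, p u ∈ U := by
    rintro p hp u ⟨a, ha⟩
    have hpR : iota p ∈ R := Subring.subset_closure ⟨p, hp, rfl⟩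
    refine ⟨⟨iota p, hpR⟩ * a, ?_⟩
    change (iota p * (a : E)) (Additive.ofMul v) = _
    change iota p ((a : E) (Additive.ofMul v)) = _
    rw [ha]
    rfl
  have hvU : v ∈ U := ⟨1, rfl⟩
  have htop : U = ⊤ := by
    rcases hirr U hU with h | h
    · rw [h, Subgroup.mem_bot] at hvU
      exact absurd hvU hv
    · exact h
  have hsurj : Function.Surjective (fun a : R => Additive.toMul ((a : E) (Additive.ofMul v))) := by
    intro x
    have : x ∈ U := by rw [htop]; exact Subgroup.mem_top _
    obtain ⟨a, ha⟩ := this
    refine ⟨a, ?_⟩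
    change Additive.toMul ((a : E) (Additive.ofMul v)) = x
    rw [ha]
    rfl
  exact (Nat.card_le_card_of_surjective _ hsurj).trans hcard

end Cfsg.Agent.Lib.NoDiv
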