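import Mathlib

/-!
# Piece X of the no-divisibility theorem: a group of automorphisms `B` of an abelian group `S`
normalized by an automorphism `τ` of `s`-power order, with `P = [τ, B]` acting freely, acts
irreducibly through `P`.
-/

set_option autoImplicit false
set_option linter.unusedSectionVars false
set_option linter.style.haveILetI false
set_option linter.style.longLine false

namespace Cfsg.Agent.Lib.NoDiv

universe u

variable {S : Type u} [CommGroup S]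

/-- The image of `b ↦ σ(b) b⁻¹`, `σ` the conjugation by `τ`. -/
def Pset (B : Subgroup (MulAut S)) (τ : MulAut S) : Set (MulAut S) :=
  {p | ∃ b ∈ B, p = τ * b * τ⁻¹ * b⁻¹}

/-- The orbit of `x` under `B`. -/
def orbB (B : Subgroup (MulAut S)) (x : S) : Set S := {y | ∃ b ∈ B, b x = y}

/-- The hypotheses of the lemma. -/
structure XHyp (B : Subgroup (MulAut S)) (τ : MulAut S) (s k : ℕ) : Prop where
  hs : s.Prime
  comm : ∀ b ∈ B, ∀ c ∈ B, b * c = c * b
  τ_pow : τ ^ (s ^ k) = 1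
  norm : ∀ b ∈ B, τ * b * τ⁻¹ ∈ B
  orb : ∀ x : S, x ≠ 1 → ∃ b ∈ B, τ x = b x
  ndvd : ∀ x : S, x ≠ 1 → ¬ s ∣ Nat.card (orbB B x)
  free : ∀ p ∈ Pset B τ, ∀ x : S, x ≠ 1 → p x = x → p = 1
  nontriv : ∃ p ∈ Pset B τ, p ≠ 1

namespace LemmaX

/-- A generic fixed point count. -/
theorem card_set_modEq {T : Type*} [Finite T] (A : Set T) (g : T → T) (hg : ∀ y ∈ A, g y ∈ A)
    {l n : ℕ} (hl : l.Prime) (h : g^[l ^ n] = id) :
    Nat.card A ≡ Nat.card {y : T // y ∈ A ∧ g y = y} [MOD l] := by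
  classical
  haveI : Fact l.Prime := ⟨hl⟩
  haveI : Fintype A := Fintype.ofFinite A
  let f : A → A := fun y => ⟨g y.1, hg _ y.2⟩
  have hit : ∀ (m : ℕ) (y : A), ((f^[m] y : A) : T) = g^[m] y.1 := by
    intro m
    induction m with
    | zero => intro y; rfl
    | succ m ih =>
      intro y
      rw [Function.iterate_succ_apply', Function.iterate_succ_apply']
      show g ((f^[m] y : A) : T) = _
      rw [ih]
  let F : Function.End A := f
  have hF : F ^ l ^ n = 1 := by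
    have : (F ^ l ^ n : Function.End A) = f^[l ^ n] :=
      hom_coe_pow (fun g : Function.End A ↦ (g : A → A)) rfl (fun g h ↦ rfl) F (l ^ n)
    rw [this]
    funext y
    apply Subtype.ext
    rw [hit, h]
    rfl
  have h1 := Equiv.Perm.card_fixedPoints_modEq hF
  have h2 : Nat.card A = Fintype.card A := Nat.card_eq_fintype_card
  have h3 : Nat.card {y : T // y ∈ A ∧ g y = y} = Fintype.card (Function.fixedPoints F) := by
    rw [← Nat.card_eq_fintype_card]
    refine Nat.card_congr ⟨fun y => ⟨⟨y.1, y.2.1⟩, ?_⟩, fun y => ⟨y.1.1, y.1.2, ?_⟩, ?_, ?_⟩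
    · exact Subtype.ext y.2.2
    · exact congrArg Subtype.val y.2
    · intro y; rfl
    · intro y; rfl
  rw [h2, h3]
  exact h1

theorem iterate_aut (g : MulAut S) (n : ℕ) (y : S) : (g : S → S)^[n] y = (g ^ n) y := by
  induction n with
  | zero => rfl
  | succ n ih =>
    rw [Function.iterate_succ_apply', ih, pow_succ']
    rfl

/-- If an automorphism of `l`-power order stabilizes a set without fixed point in it, then `l`
divides its size. -/
theorem dvd_card_of_no_fix [Finite S] (A : Set S) (g : MulAut S) (hg : ∀ y ∈ A, g y ∈ A)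
    {l n : ℕ} (hl : l.Prime) (h : g ^ (l ^ n) = 1) (hno : ∀ y ∈ A, g y ≠ y) : l ∣ Nat.card A := by
  have h1 := card_set_modEq A (g : S → S) hg hl (n := n) (by
    funext y
    rw [iterate_aut, h]
    rfl)
  haveI : IsEmpty {y : S // y ∈ A ∧ (g : S → S) y = y} := ⟨fun y => hno y.1 y.2.1 y.2.2⟩
  have h0 : Nat.card {y : S // y ∈ A ∧ (g : S → S) y = y} = 0 := Nat.card_of_isEmpty
  rw [h0] at h1
  exact (Nat.modEq_zero_iff_dvd).1 h1

theorem exists_fix_of_not_dvd [Finite S] (A : Set S) (g : MulAut S) (hg : ∀ y ∈ A, g y ∈ A)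
    {l n : ℕ} (hl : l.Prime) (h : g ^ (l ^ n) = 1) (hnd : ¬ l ∣ Nat.card A) : ∃ y ∈ A, g y = y := by
  by_contra hc
  push_neg at hc
  exact hnd (dvd_card_of_no_fix A g hg hl h hc)

theorem card_ne_one (T : Type*) [Group T] [Finite T] : Nat.card T = Nat.card {y : T // y ≠ 1} + 1 := by
  classical
  rw [← Finite.card_option]
  exact Nat.card_congr (Equiv.optionSubtypeNe (1 : T)).symm

variable [Finite S] {B : Subgroup (MulAut S)} {τ : MulAut S} {s k : ℕ}

/-- The subgroup `P`. -/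
def PS (h : XHyp B τ s k) : Subgroup (MulAut S) where
  carrier := Pset B τ
  one_mem' := ⟨1, B.one_mem, by simp⟩
  mul_mem' := by
    rintro _ _ ⟨b, hb, rfl⟩ ⟨c, hc, rfl⟩
    refine ⟨b * c, B.mul_mem hb hc, ?_⟩
    have h1 : τ * c * τ⁻¹ * b⁻¹ = b⁻¹ * (τ * c * τ⁻¹) := h.comm _ (h.norm c hc) _ (B.inv_mem hb)
    calc τ * b * τ⁻¹ * b⁻¹ * (τ * c * τ⁻¹ * c⁻¹)
        = τ * b * τ⁻¹ * (b⁻¹ * (τ * c * τ⁻¹)) * c⁻¹ := by group
      _ = τ * b * τ⁻¹ * (τ * c * τ⁻¹ * b⁻¹) * c⁻¹ := by rw [h1]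
      _ = τ * (b * c) * τ⁻¹ * (b * c)⁻¹ := by
        have h2 : b⁻¹ * c⁻¹ = c⁻¹ * b⁻¹ := h.comm _ (B.inv_mem hb) _ (B.inv_mem hc)
        simp only [mul_inv_rev, mul_assoc]
        rw [h2]
        group
  inv_mem' := by
    rintro _ ⟨b, hb, rfl⟩
    refine ⟨b⁻¹, B.inv_mem hb, ?_⟩
    have h1 : b * (τ * b⁻¹ * τ⁻¹) = (τ * b⁻¹ * τ⁻¹) * b := h.comm _ hb _ (h.norm _ (B.inv_mem hb))
    calc (τ * b * τ⁻¹ * b⁻¹)⁻¹ = b * (τ * b⁻¹ * τ⁻¹) := by group
      _ = (τ * b⁻¹ * τ⁻¹) * b := h1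
      _ = τ * b⁻¹ * τ⁻¹ * b⁻¹⁻¹ := by simp

theorem mem_PS (h : XHyp B τ s k) {p : MulAut S} : p ∈ PS h ↔ p ∈ Pset B τ := Iff.rfl

theorem PS_le (h : XHyp B τ s k) {p : MulAut S} (hp : p ∈ PS h) : p ∈ B := by
  obtain ⟨b, hb, rfl⟩ := hp
  exact B.mul_mem (h.norm b hb) (B.inv_mem hb)

theorem free' (h : XHyp B τ s k) {p : MulAut S} (hp : p ∈ PS h) {x : S} (hx : x ≠ 1) (hpx : p x = x) :
    p = 1 := h.free p hp x hx hpx

theorem sigma_PS (h : XHyp B τ s k) {q : MulAut S} (hq : q ∈ PS h) : τ * q * τ⁻¹ ∈ PS h := by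
  obtain ⟨b, hb, rfl⟩ := hq
  exact ⟨τ * b * τ⁻¹, h.norm b hb, by group⟩

theorem tel (h : XHyp B τ s k) {q : MulAut S} (hq : q ∈ PS h) (hfix : τ * q * τ⁻¹ = q) :
    q ^ (s ^ k) = 1 := by
  obtain ⟨b, hb, hqb⟩ := hq
  have hb1 : τ * b * τ⁻¹ = q * b := by rw [hqb]; group
  have key : ∀ n : ℕ, τ ^ n * b * (τ ^ n)⁻¹ = q ^ n * b := by
    intro n
    induction n with
    | zero => simp
    | succ n ih =>
      have h1 : τ * q ^ n * τ⁻¹ = q ^ n := by
        have := conj_pow (a := τ) (b := q) (i := n)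
        rw [hfix] at this
        exact this.symm
      calc τ ^ (n + 1) * b * (τ ^ (n + 1))⁻¹ = τ * (τ ^ n * b * (τ ^ n)⁻¹) * τ⁻¹ := by
            rw [pow_succ']; group
        _ = τ * (q ^ n * b) * τ⁻¹ := by rw [ih]
        _ = (τ * q ^ n * τ⁻¹) * (τ * b * τ⁻¹) := by group
        _ = q ^ n * (q * b) := by rw [h1, hb1]
        _ = q ^ (n + 1) * b := by rw [pow_succ, mul_assoc]
  have h2 := key (s ^ k)
  rw [h.τ_pow] at h2
  simp only [one_mul, inv_one, mul_one] at h2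
  exact (mul_eq_right.1 h2.symm)

theorem exists_ne_one (h : XHyp B τ s k) : ∃ x : S, x ≠ 1 := by
  obtain ⟨p, _, hp⟩ := h.nontriv
  by_contra hc
  push_neg at hc
  apply hp
  ext x
  rw [hc x]
  simp

theorem orbB_stable (h : XHyp B τ s k) (x : S) {b : MulAut S} (hb : b ∈ B) {y : S} (hy : y ∈ orbB B x) :
    b y ∈ orbB B x := by
  obtain ⟨c, hc, rfl⟩ := hy
  exact ⟨b * c, B.mul_mem hb hc, rfl⟩

theorem orbB_ne_one {x : S} (hx : x ≠ 1) {y : S} (hy : y ∈ orbB B x) : y ≠ 1 := by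
  obtain ⟨c, _, rfl⟩ := hy
  intro h1
  exact hx (by simpa using h1)

theorem no_torsion (h : XHyp B τ s k) {q : MulAut S} (hq : q ∈ PS h) {j : ℕ} (hj : q ^ (s ^ j) = 1) :
    q = 1 := by
  by_contra hne
  obtain ⟨x, hx⟩ := exists_ne_one h
  apply h.ndvd x hx
  refine dvd_card_of_no_fix (orbB B x) q (fun y hy => orbB_stable h x (PS_le h hq) hy) h.hs hj ?_
  intro y hy hfix
  exact hne (free' h hq (orbB_ne_one hx hy) hfix)

theorem not_dvd_card_PS (h : XHyp B τ s k) : ¬ s ∣ Nat.card (PS h) := by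
  intro hd
  haveI : Fact s.Prime := ⟨h.hs⟩
  obtain ⟨q, hq⟩ := exists_prime_orderOf_dvd_card' s hd
  have h1 : (q : MulAut S) ^ (s ^ 1) = 1 := by
    rw [pow_one]
    have := pow_orderOf_eq_one q
    rw [hq] at this
    exact_mod_cast congrArg Subtype.val this
  have h2 := no_torsion h q.2 h1
  have h3 : q = 1 := Subtype.ext h2
  rw [h3, orderOf_one] at hq
  exact h.hs.one_lt.ne hq

theorem aut_conj_apply (a c : MulAut S) (y : S) : (a * c * a⁻¹) (a y) = a (c y) := by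
  simp [MulAut.mul_apply]

/-- The fixed point subgroup of `τ`. -/
def fixT (τ : MulAut S) : Subgroup S where
  carrier := {x | τ x = x}
  one_mem' := map_one τ
  mul_mem' := by
    intro a b ha hb
    show τ (a * b) = a * b
    rw [map_mul, ha, hb]
  inv_mem' := by
    intro a ha
    show τ a⁻¹ = a⁻¹
    rw [map_inv, ha]

theorem exists_fix_orb (h : XHyp B τ s k) {x : S} (hx : x ≠ 1) : ∃ t ∈ orbB B x, τ t = t := by
  refine exists_fix_of_not_dvd (orbB B x) τ ?_ h.hs h.τ_pow (h.ndvd x hx)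
  rintro _ ⟨b, hb, rfl⟩
  obtain ⟨b₀, hb₀, h0⟩ := h.orb x hx
  refine ⟨(τ * b * τ⁻¹) * b₀, B.mul_mem (h.norm b hb) hb₀, ?_⟩
  rw [MulAut.mul_apply, ← h0, aut_conj_apply]

/-- Every `y ≠ 1` is in `P T`. -/
theorem exists_decomp (h : XHyp B τ s k) {y : S} (hy : y ≠ 1) :
    ∃ p ∈ PS h, ∃ t : S, τ t = t ∧ t ≠ 1 ∧ p t = y := by
  obtain ⟨t₀, ⟨b, hb, rfl⟩, ht₀⟩ := exists_fix_orb h hy
  -- `y = b⁻¹ t₀`
  set t₁ := b y with ht₁
  have hb₁ : b⁻¹ ∈ B := B.inv_mem hb
  have hyt : y = b⁻¹ t₁ := by simp [ht₁]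
  have hτy : τ y = (τ * b⁻¹ * τ⁻¹ * (b⁻¹)⁻¹) y := by
    have e1 : τ y = (τ * b⁻¹ * τ⁻¹) (τ t₁) := by
      rw [aut_conj_apply, ← hyt]
    rw [e1, ht₀]
    simp [MulAut.mul_apply, ht₁]
  have hq : (τ * b⁻¹ * τ⁻¹ * (b⁻¹)⁻¹) ∈ PS h := ⟨b⁻¹, hb₁, rfl⟩
  set q := τ * b⁻¹ * τ⁻¹ * (b⁻¹)⁻¹ with hqdef
  let A : Set S := {w | ∃ p ∈ PS h, p y = w}
  have hA : ∀ w ∈ A, τ w ∈ A := by
    rintro _ ⟨p, hp, rfl⟩
    refine ⟨(τ * p * τ⁻¹) * q, (PS h).mul_mem (sigma_PS h hp) hq, ?_⟩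
    rw [MulAut.mul_apply, ← hτy, aut_conj_apply]
  have hcard : Nat.card A = Nat.card (PS h) := by
    refine (Nat.card_congr (Equiv.ofBijective (fun p : PS h => (⟨p.1 y, p.1, p.2, rfl⟩ : A)) ⟨?_, ?_⟩)).symm
    · intro p p' he
      have e1 : (p : MulAut S) y = (p' : MulAut S) y := congrArg Subtype.val he
      have e2 : ((p' : MulAut S)⁻¹ * p) y = y := by
        rw [MulAut.mul_apply, e1]; simp
      have e3 := free' h ((PS h).mul_mem ((PS h).inv_mem p'.2) p.2) hy e2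
      exact Subtype.ext (inv_mul_eq_one.1 e3).symm
    · rintro ⟨_, p, hp, rfl⟩
      exact ⟨⟨p, hp⟩, rfl⟩
  obtain ⟨_, ⟨p, hp, rfl⟩, hfix⟩ := exists_fix_of_not_dvd A τ hA h.hs h.τ_pow (by
    rw [hcard]; exact not_dvd_card_PS h)
  refine ⟨p⁻¹, (PS h).inv_mem hp, p y, hfix, ?_, by simp⟩
  intro h1
  exact hy (by simpa using h1)

/-- Uniqueness. -/
theorem eq_one_of_fix (h : XHyp B τ s k) {p : MulAut S} (hp : p ∈ PS h) {t t' : S} (ht : τ t = t)
    (ht' : τ t' = t') (ht1 : t ≠ 1) (hpt : p t = t') : p = 1 := by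
  have e1 : (τ * p * τ⁻¹) t = p t := by
    have e0 := aut_conj_apply τ p t
    rw [ht, hpt, ht'] at e0
    rw [e0, hpt]
  have e2 : (p⁻¹ * (τ * p * τ⁻¹)) t = t := by
    rw [MulAut.mul_apply, e1]; simp
  have e3 := free' h ((PS h).mul_mem ((PS h).inv_mem hp) (sigma_PS h hp)) ht1 e2
  have e4 : τ * p * τ⁻¹ = p := (inv_mul_eq_one.1 e3).symm
  exact no_torsion h hp (tel h hp e4)

theorem card_S (h : XHyp B τ s k) :
    Nat.card S = Nat.card (PS h) * Nat.card {t : fixT τ // t ≠ 1} + 1 := by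
  rw [card_ne_one S, ← Nat.card_prod]
  congr 1
  symm
  refine Nat.card_congr (Equiv.ofBijective
    (fun z : PS h × {t : fixT τ // t ≠ 1} => (⟨z.1.1 z.2.1.1, ?_⟩ : {y : S // y ≠ 1})) ⟨?_, ?_⟩)
  · intro h1
    apply z.2.2
    apply Subtype.ext
    simpa using h1
  · rintro ⟨p, t⟩ ⟨p', t'⟩ he
    have e1 : (p : MulAut S) (t.1 : S) = (p' : MulAut S) (t'.1 : S) := congrArg Subtype.val he
    have hne : ((t.1 : fixT τ) : S) ≠ 1 := fun h1 => t.2 (Subtype.ext h1)
    have e2 : ((p' : MulAut S)⁻¹ * p) (t.1 : S) = (t'.1 : S) := by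
      rw [MulAut.mul_apply, e1]; simp
    have e3 := eq_one_of_fix h ((PS h).mul_mem ((PS h).inv_mem p'.2) p.2) t.1.2 t'.1.2 hne e2
    have e4 : (p : MulAut S) = p' := (inv_mul_eq_one.1 e3).symm
    have e5 : p = p' := Subtype.ext e4
    subst e5
    have e6 : (t.1 : S) = t'.1 := (p : MulAut S).injective e1
    have e7 : t = t' := Subtype.ext (Subtype.ext e6)
    rw [e7]
  · rintro ⟨y, hy⟩
    obtain ⟨p, hp, t, ht, ht1, rfl⟩ := exists_decomp h hy
    exact ⟨(⟨p, hp⟩, ⟨⟨t, ht⟩, fun e => ht1 (congrArg Subtype.val e)⟩), rfl⟩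

theorem card_fix_sq_le (h : XHyp B τ s k) :
    Nat.card (fixT τ) * Nat.card (fixT τ) ≤ Nat.card S := by
  obtain ⟨p, hp, hp1⟩ := h.nontriv
  have hp' : p ∈ PS h := hp
  rw [← Nat.card_prod]
  refine Nat.card_le_card_of_injective
    (fun z : fixT τ × fixT τ => (z.1 : S) * p (z.2 : S)) ?_
  rintro ⟨a, b⟩ ⟨c, d⟩ he
  simp only at he
  have e1 : p ((d : S) * (b : S)⁻¹) = (a : S) * (c : S)⁻¹ := by
    rw [map_mul, map_inv]
    have e2 : (c : S) * p (d : S) = (a : S) * p (b : S) := he.symm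
    calc p (d : S) * (p (b : S))⁻¹ = (c : S)⁻¹ * ((c : S) * p (d : S)) * (p (b : S))⁻¹ := by group
      _ = (c : S)⁻¹ * ((a : S) * p (b : S)) * (p (b : S))⁻¹ := by rw [e2]
      _ = (a : S) * (c : S)⁻¹ := by
        rw [mul_comm (c : S)⁻¹, mul_assoc, mul_comm (c : S)⁻¹, mul_assoc]
        simp
  by_cases hbd : (d : S) * (b : S)⁻¹ = 1
  · have hb : (b : S) = d := (mul_inv_eq_one.1 hbd).symm
    have ha : (a : S) = c := by
      rw [hb] at he
      exact mul_right_cancel he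
    have hb' : b = d := Subtype.ext hb
    have ha' : a = c := Subtype.ext ha
    rw [ha', hb']
  · exfalso
    apply hp1
    refine eq_one_of_fix h hp' ?_ ?_ hbd e1
    · exact ((fixT τ).mul_mem d.2 ((fixT τ).inv_mem b.2) : _)
    · exact ((fixT τ).mul_mem a.2 ((fixT τ).inv_mem c.2) : _)

/-- The main inequality `|S| < |P|²`. -/
theorem card_S_lt (h : XHyp B τ s k) : Nat.card S < Nat.card (PS h) * Nat.card (PS h) := by
  have h1 := card_S h
  have h2 := card_fix_sq_le h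
  have h3 : Nat.card (fixT τ) = Nat.card {t : fixT τ // t ≠ 1} + 1 := card_ne_one _
  set a := Nat.card {t : fixT τ // t ≠ 1} with ha
  set n := Nat.card (PS h) with hn
  have hapos : 1 ≤ a := by
    obtain ⟨x, hx⟩ := exists_ne_one h
    obtain ⟨p, _, t, ht, ht1, _⟩ := exists_decomp h hx
    have : Nonempty {t : fixT τ // t ≠ 1} := ⟨⟨⟨t, ht⟩, fun e => ht1 (congrArg Subtype.val e)⟩⟩
    have hpos : 0 < a := Nat.card_pos
    omega
  rw [h3, h1] at h2
  -- `(a+1)² ≤ n a + 1`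
  have h4 : a + 2 ≤ n := by
    by_contra hc
    push_neg at hc
    have : n * a ≤ (a + 1) * a := Nat.mul_le_mul_right a (by omega)
    nlinarith
  rw [h1]
  nlinarith

/-- The set `U \ {1}`. -/
theorem card_sub_ne_one (U : Subgroup S) :
    Nat.card U = Nat.card ({y : S | y ∈ U ∧ y ≠ 1} : Set S) + 1 := by
  rw [card_ne_one U]
  congr 1
  refine Nat.card_congr ⟨fun y => ⟨y.1.1, y.1.2, fun e => y.2 (Subtype.ext e)⟩,
    fun y => ⟨⟨y.1, y.2.1⟩, fun e => y.2.2 (congrArg Subtype.val e)⟩, ?_, ?_⟩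
  · intro y; rfl
  · intro y; rfl

/-- An element of `P` fixing a nontrivial coset of an invariant subgroup is trivial. -/
theorem coset_fix (h : XHyp B τ s k) (U : Subgroup S) (hU : ∀ p ∈ Pset B τ, ∀ u ∈ U, p u ∈ U)
    {r : MulAut S} (hr : r ∈ PS h) {x : S} (hx : x ∉ U) (hrx : x⁻¹ * r x ∈ U) : r = 1 := by
  by_contra hne
  -- a power of prime order
  haveI : Finite (MulAut S) := inferInstance
  have hfin : IsOfFinOrder r := isOfFinOrder_of_finite r
  have hord : orderOf r ≠ 1 := fun e => hne (orderOf_eq_one_iff.1 e)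
  obtain ⟨t, ht, htd⟩ := Nat.exists_prime_and_dvd hord
  obtain ⟨c, hc⟩ := htd
  set r' := r ^ c with hr'
  have hr'1 : r' ^ (t ^ 1) = 1 := by
    rw [pow_one, hr', ← pow_mul, mul_comm, ← hc, pow_orderOf_eq_one]
  have hcpos : c < orderOf r := by
    have h0 : 0 < orderOf r := hfin.orderOf_pos
    have : 0 < c := by
      rcases Nat.eq_zero_or_pos c with h00 | h00
      · rw [h00, mul_zero] at hc; omega
      · exact h00
    rw [hc]
    exact lt_mul_of_one_lt_left this ht.one_lt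
  have hcpos' : 0 < c := by
    rcases Nat.eq_zero_or_pos c with h00 | h00
    · have h0 : 0 < orderOf r := hfin.orderOf_pos
      rw [h00, mul_zero] at hc; omega
    · exact h00
  have hr'ne : r' ≠ 1 := pow_ne_one_of_lt_orderOf hcpos'.ne' hcpos
  have hr'P : r' ∈ PS h := (PS h).pow_mem hr c
  -- the coset
  let A : Set S := {y | x⁻¹ * y ∈ U}
  have hAr : ∀ y ∈ A, r y ∈ A := by
    intro y hy
    have e1 : x⁻¹ * r y = (x⁻¹ * r x) * r (x⁻¹ * y) := by
      rw [map_mul, map_inv]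
      group
    show x⁻¹ * r y ∈ U
    rw [e1]
    exact U.mul_mem hrx (hU r hr _ hy)
  have hAr' : ∀ (m : ℕ), ∀ y ∈ A, (r ^ m) y ∈ A := by
    intro m
    induction m with
    | zero => intro y hy; simpa using hy
    | succ m ih =>
      intro y hy
      rw [pow_succ', MulAut.mul_apply]
      exact hAr _ (ih y hy)
  have hd1 : t ∣ Nat.card A := by
    refine dvd_card_of_no_fix A r' (hAr' c) ht hr'1 ?_
    intro y hy hfix
    have hy1 : y ≠ 1 := by
      rintro rfl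
      apply hx
      have : x⁻¹ * 1 ∈ U := hy
      simpa using this
    exact hr'ne (free' h hr'P hy1 hfix)
  have hcardA : Nat.card A = Nat.card U := by
    refine Nat.card_congr ⟨fun y => ⟨x⁻¹ * y.1, y.2⟩, fun u => ⟨x * u.1, ?_⟩, ?_, ?_⟩
    · show x⁻¹ * (x * u.1) ∈ U
      simp
    · intro y
      apply Subtype.ext
      simp
    · intro u
      apply Subtype.ext
      simp
  have hd2 : t ∣ Nat.card ({y : S | y ∈ U ∧ y ≠ 1} : Set S) := by
    refine dvd_card_of_no_fix _ r' ?_ ht hr'1 ?_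
    · rintro y ⟨hyU, hy1⟩
      refine ⟨?_, fun e => hy1 (by simpa using e)⟩
      exact hU r' hr'P y hyU
    · rintro y ⟨_, hy1⟩ hfix
      exact hr'ne (free' h hr'P hy1 hfix)
  rw [hcardA, card_sub_ne_one U] at hd1
  have : t ∣ 1 := (Nat.dvd_add_right hd2).1 hd1
  exact ht.one_lt.ne' (Nat.dvd_one.1 this)

end LemmaX

open LemmaX

variable [Finite S] {B : Subgroup (MulAut S)} {τ : MulAut S} {s k : ℕ}

theorem X_irred (h : XHyp B τ s k) (U : Subgroup S) (hU : ∀ p ∈ Pset B τ, ∀ u ∈ U, p u ∈ U) :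
    U = ⊥ ∨ U = ⊤ := by
  by_contra hc
  push_neg at hc
  obtain ⟨hbot, htop⟩ := hc
  obtain ⟨u, huU, hu1⟩ : ∃ u ∈ U, u ≠ (1 : S) := (Subgroup.bot_or_exists_ne_one U).resolve_left hbot
  obtain ⟨x, hx⟩ : ∃ x, x ∉ U := by
    by_contra hcc
    push_neg at hcc
    exact htop (eq_top_iff.2 fun y _ => hcc y)
  have hlt := card_S_lt h
  -- first bound
  have h1 : Nat.card (PS h) ≤ Nat.card ({y : S | y ∈ U ∧ y ≠ 1} : Set S) := by
    refine Nat.card_le_card_of_injective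
      (fun p : PS h => (⟨p.1 u, hU _ p.2 _ huU, fun e => hu1 (by simpa using e)⟩ :
        ({y : S | y ∈ U ∧ y ≠ 1} : Set S))) ?_
    intro p p' he
    have e1 : (p : MulAut S) u = (p' : MulAut S) u := congrArg Subtype.val he
    have e2 : ((p' : MulAut S)⁻¹ * p) u = u := by
      rw [MulAut.mul_apply, e1]; simp
    have e3 := free' h ((PS h).mul_mem ((PS h).inv_mem p'.2) p.2) hu1 e2
    exact Subtype.ext (inv_mul_eq_one.1 e3).symm
  -- second bound
  have h2 : Nat.card (PS h) ≤ Nat.card {c : S ⧸ U // c ≠ 1} := by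
    refine Nat.card_le_card_of_injective
      (fun p : PS h => (⟨(QuotientGroup.mk (p.1 x) : S ⧸ U), ?_⟩ : {c : S ⧸ U // c ≠ 1})) ?_
    · intro e
      rw [QuotientGroup.eq_one_iff] at e
      have e2 := hU _ ((PS h).inv_mem p.2) _ e
      simp only [MulAut.inv_apply_self] at e2
      exact hx e2
    · intro p p' he
      have e1 : (QuotientGroup.mk (p.1 x) : S ⧸ U) = QuotientGroup.mk (p'.1 x) :=
        congrArg Subtype.val he
      rw [QuotientGroup.eq] at e1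
      have e2 := hU _ ((PS h).inv_mem p.2) _ e1
      have e3 : (p.1⁻¹ : MulAut S) ((p.1 x)⁻¹ * p'.1 x) = x⁻¹ * ((p.1⁻¹ * p'.1 : MulAut S) x) := by
        rw [map_mul, map_inv, MulAut.mul_apply]
        simp
      rw [e3] at e2
      have e4 := coset_fix h U hU ((PS h).mul_mem ((PS h).inv_mem p.2) p'.2) hx e2
      exact Subtype.ext (inv_mul_eq_one.1 e4)
  have h3 : Nat.card S = Nat.card U * Nat.card (S ⧸ U) := by
    rw [mul_comm]
    exact (Subgroup.card_eq_card_quotient_mul_card_subgroup U)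
  rw [card_sub_ne_one U, card_ne_one (S ⧸ U)] at h3
  set a := Nat.card ({y : S | y ∈ U ∧ y ≠ 1} : Set S)
  set b := Nat.card {c : S ⧸ U // c ≠ 1}
  set n := Nat.card (PS h)
  rw [h3] at hlt
  nlinarith

theorem X_elem (h : XHyp B τ s k) : ∃ r : ℕ, r.Prime ∧ ∀ x : S, x ^ r = 1 := by
  obtain ⟨x, hx⟩ := exists_ne_one h
  have hord : orderOf x ≠ 1 := fun e => hx (orderOf_eq_one_iff.1 e)
  obtain ⟨r, hr, hrd⟩ := Nat.exists_prime_and_dvd hord
  obtain ⟨c, hc⟩ := hrd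
  set y := x ^ c with hy
  have hpos : 0 < orderOf x := (isOfFinOrder_of_finite x).orderOf_pos
  have hyr : y ^ r = 1 := by
    rw [hy, ← pow_mul, mul_comm, ← hc, pow_orderOf_eq_one]
  have hcpos : 0 < c := by
    rcases Nat.eq_zero_or_pos c with h00 | h00
    · rw [h00, mul_zero] at hc; omega
    · exact h00
  have hclt : c < orderOf x := by
    rw [hc]
    exact lt_mul_of_one_lt_left hcpos hr.one_lt
  have hy1 : y ≠ 1 := pow_ne_one_of_lt_orderOf hcpos.ne' hclt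
  refine ⟨r, hr, ?_⟩
  let U : Subgroup S := (powMonoidHom r : S →* S).ker
  have hU : ∀ p ∈ Pset B τ, ∀ u ∈ U, p u ∈ U := by
    intro p _ u hu
    have hu' : u ^ r = 1 := hu
    show (p u) ^ r = 1
    rw [← map_pow, hu', map_one]
  rcases X_irred h U hU with h0 | h0
  · exfalso
    have : y ∈ U := hyr
    rw [h0] at this
    exact hy1 (by simpa using this)
  · intro z
    have : z ∈ U := by rw [h0]; trivial
    exact this

theorem X_stab (h : XHyp B τ s k) {b : MulAut S} (hb : b ∈ B) {x : S} (hx : x ≠ 1) (hbx : b x = x) :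
    b = 1 := by
  let U : Subgroup S :=
    { carrier := {y | b y = y}
      one_mem' := map_one b
      mul_mem' := by
        intro a c ha hc
        show b (a * c) = a * c
        rw [map_mul, ha, hc]
      inv_mem' := by
        intro a ha
        show b a⁻¹ = a⁻¹
        rw [map_inv, ha] }
  have hU : ∀ p ∈ Pset B τ, ∀ u ∈ U, p u ∈ U := by
    intro p hp u hu
    have hu' : b u = u := hu
    show b (p u) = p u
    have e1 : b * p = p * b := h.comm _ hb _ (PS_le h hp)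
    have e2 : (b * p) u = (p * b) u := by rw [e1]
    rw [MulAut.mul_apply, MulAut.mul_apply, hu'] at e2
    exact e2
  rcases X_irred h U hU with h0 | h0
  · exfalso
    have : x ∈ U := hbx
    rw [h0] at this
    exact hx (by simpa using this)
  · ext y
    have : y ∈ U := by rw [h0]; trivial
    exact this

theorem X_cop (h : XHyp B τ s k) {r : ℕ} (hr : r.Prime) (hexp : ∀ x : S, x ^ r = 1) :
    ¬ r ∣ Nat.card B := by
  intro hd
  haveI : Fact r.Prime := ⟨hr⟩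
  obtain ⟨b, hb⟩ := exists_prime_orderOf_dvd_card' r hd
  have hb1 : (b : MulAut S) ^ (r ^ 1) = 1 := by
    rw [pow_one]
    have := pow_orderOf_eq_one b
    rw [hb] at this
    exact_mod_cast congrArg Subtype.val this
  have hbne : (b : MulAut S) ≠ 1 := by
    intro e
    have : b = 1 := Subtype.ext e
    rw [this, orderOf_one] at hb
    exact hr.one_lt.ne hb
  have hd1 : r ∣ Nat.card ({y : S | y ≠ 1} : Set S) := by
    refine dvd_card_of_no_fix _ (b : MulAut S) ?_ hr hb1 ?_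
    · intro y hy e
      exact hy (by simpa using e)
    · intro y hy hfix
      exact hbne (X_stab h b.2 hy hfix)
  obtain ⟨x, hx⟩ := exists_ne_one h
  have hox : orderOf x = r := orderOf_eq_prime (hexp x) hx
  have hd2 : r ∣ Nat.card S := hox ▸ orderOf_dvd_natCard x
  have e1 : Nat.card S = Nat.card ({y : S | y ≠ 1} : Set S) + 1 := card_ne_one S
  rw [e1] at hd2
  have : r ∣ 1 := (Nat.dvd_add_right hd1).1 hd2
  exact hr.one_lt.ne' (Nat.dvd_one.1 this)

end Cfsg.Agent.Lib.NoDiv
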