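import Mathlib
import Cfsg.Agent.Lib.Char.ThreeDeg.ChiefDich
import Cfsg.Agent.Lib.Char.DetExt
import Cfsg.Agent.Lib.Char.DetExt2

/-!
# The strong noncentral key: every `q'`-degree of `A` multiplies up by `|G : A|`
-/

set_option autoImplicit false
set_option linter.style.haveILetI false

namespace Cfsg.Agent.Lib.NoDiv

open Cfsg Cfsg.Agent.Lib.Char Cfsg.Agent.Lib.Char.Basic Cfsg.Agent.Lib.Char.ThreeDeg
open Cfsg.Agent.Lib.Char.DetExt Cfsg.Agent.Lib.Char.DetExt2 Cfsg.Agent.Lib.Char.Monomial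
  Cfsg.Agent.Lib.Char.PrimeIndex

universe u

theorem detChar_comp_equiv {K : Type*} [Group K] [Finite K] {χ : K → ℂ} (hχ : IsCharacter K χ)
    (σ : K →* K) (a : K) : detChar (fun x => χ (σ x)) a = detChar χ (σ a) := by
  obtain ⟨m, ρ, rfl⟩ := hχ
  let ρ' : Representation ℂ K (Fin m → ℂ) := ρ.comp σ
  have h : (fun x => ρ.character (σ x)) = ρ'.character := rfl
  rw [h, detChar_character, detChar_character]
  rfl

theorem exists_mul_add_one_dvd {d N : ℕ} (hN : 0 < N) (hd : d.Coprime N) :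
    ∃ e : ℕ, N ∣ e * d + 1 := by
  haveI : NeZero N := ⟨hN.ne'⟩
  let w : ZMod N := - ((ZMod.unitOfCoprime d hd : (ZMod N)ˣ)⁻¹ : (ZMod N)ˣ)
  refine ⟨w.val, ?_⟩
  rw [← ZMod.natCast_eq_zero_iff]
  push_cast
  rw [ZMod.natCast_zmod_val]
  have h : (d : ZMod N) = ((ZMod.unitOfCoprime d hd : (ZMod N)ˣ) : ZMod N) := rfl
  have h2 : (((ZMod.unitOfCoprime d hd)⁻¹ : (ZMod N)ˣ) : ZMod N) * (d : ZMod N) = 1 := by
    rw [h]; exact Units.inv_mul _
  simp only [w]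
  rw [neg_mul, h2]
  ring

/-- The strong key. -/
theorem strong_nc {G : Type u} [Group G] [Fintype G] (A : Subgroup G) [hA : A.Normal] [Fintype A]
    (hcyc : IsCyclic (G ⧸ A)) (μ : A →* ℂˣ) {q : ℕ} (hq : q.Prime)
    (hν : ∀ (u : G) (a : A), (μ ⟨u * a * u⁻¹, hA.conj_mem a a.2 u⟩ * (μ a)⁻¹) ^ q = 1)
    (hμ : ∀ u, u ∉ A → ∃ v : A, μ ⟨u * v * u⁻¹, hA.conj_mem v v.2 u⟩ ≠ μ v)
    {τ : A → ℂ} (hτ : IsIrrCharacter A τ) (hqτ : ¬ q ∣ charDegree τ) :
    ∃ χ : IrrCharacter G, charDegree (χ : G → ℂ) = A.index * charDegree τ := by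
  classical
  set d := charDegree τ with hd
  have hτd : τ 1 = d := (Values.IsCharacter.charDegree_cast
    (Values.IsIrrCharacter.isCharacter hτ)).symm
  have hτc : IsCharacter A τ := isCharacter_of_isIrrCharacter hτ
  obtain ⟨φ, hφ⟩ := exists_hom_detChar hτc
  set N := Nat.card A with hN
  have hN0 : N ≠ 0 := Nat.card_pos.ne'
  obtain ⟨b, n, hqn, hNeq⟩ := Nat.exists_eq_pow_mul_and_not_dvd hN0 q hq.ne_one
  have hdq : d.Coprime (q ^ b) :=
    Nat.Coprime.pow_right _ ((Nat.Prime.coprime_iff_not_dvd hq).2 hqτ).symm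
  obtain ⟨e, he⟩ : ∃ e : ℕ, q ^ b ∣ e * d + 1 :=
    exists_mul_add_one_dvd (pow_pos hq.pos b) hdq
  -- `β = φ ^ e`, `τ₁ = β τ`
  let β : A →* ℂˣ := φ ^ e
  let τ₁ : A → ℂ := fun a => ((β a : ℂˣ) : ℂ) * τ a
  have hτ₁ : IsIrrCharacter A τ₁ := by
    have h := isIrr_mul_hom hτ β
    have : (fun n => τ n * ((β n : ℂˣ) : ℂ)) = τ₁ := by
      funext a; exact mul_comm _ _
    rwa [this] at h
  have hτ₁c : IsCharacter A τ₁ := isCharacter_of_isIrrCharacter hτ₁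
  have hτ₁1 : τ₁ 1 = d := by simp [τ₁, hτd]
  -- the determinant of `τ₁`
  let ψ : A →* ℂˣ := φ ^ (e * d + 1)
  have hdet : ∀ a, detChar τ₁ a = ((ψ a : ℂˣ) : ℂ) := by
    intro a
    have h := detChar_mul_hom hτc β d hτd a
    show detChar (fun g => ((β g : ℂˣ) : ℂ) * τ g) a = _
    rw [h, hφ a]
    simp only [β, ψ, MonoidHom.pow_apply, Units.val_pow_eq_pow_val]
    ring
  have hψn : ∀ a, (ψ a) ^ n = 1 := by
    intro a
    have h1 : ψ a = (φ a) ^ (e * d + 1) := rfl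
    rw [h1, ← pow_mul]
    have h2 : N ∣ (e * d + 1) * n := by
      rw [hNeq]
      exact Nat.mul_dvd_mul he dvd_rfl
    obtain ⟨c, hc⟩ := h2
    rw [hc, pow_mul, ← map_pow, hN, pow_card_eq_one', map_one, one_pow]
  -- `η = τ₁ μ`
  have hη : IsIrrCharacter A (fun a => τ₁ a * ((μ a : ℂˣ) : ℂ)) := isIrr_mul_hom hτ₁ μ
  have hT : inertiaOf A (fun a => τ₁ a * ((μ a : ℂˣ) : ℂ)) = A := by
    apply le_antisymm
    · intro u hu
      by_contra hua
      rw [mem_inertiaOf] at hu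
      obtain ⟨v, hv⟩ := hμ u hua
      apply hv
      let ν : A →* ℂˣ := (μ.comp (MulAut.conjNormal u).toMonoidHom) * μ⁻¹
      have hνa : ∀ a : A, ν a = μ ⟨u * a * u⁻¹, hA.conj_mem a a.2 u⟩ * (μ a)⁻¹ := fun a => rfl
      -- `τ₁ (u a u⁻¹) = ν⁻¹ (a) τ₁ (a)`
      let σ : A →* A := (MulAut.conjNormal u).toMonoidHom
      have hσ : ∀ a : A, σ a = ⟨u * a * u⁻¹, hA.conj_mem a a.2 u⟩ := fun a => rfl
      have hcomp : (fun a => τ₁ (σ a)) = fun a => (((ν⁻¹ : A →* ℂˣ) a : ℂˣ) : ℂ) * τ₁ a := by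
        funext a
        have h3 := hu a
        have hμ0 : ((μ ⟨u * a * u⁻¹, hA.conj_mem a a.2 u⟩ : ℂˣ) : ℂ) ≠ 0 := Units.ne_zero _
        rw [hσ]
        have h4 : (((ν⁻¹ : A →* ℂˣ) a : ℂˣ) : ℂ) *
            ((μ ⟨u * a * u⁻¹, hA.conj_mem a a.2 u⟩ : ℂˣ) : ℂ) = ((μ a : ℂˣ) : ℂ) := by
          rw [MonoidHom.inv_apply, hνa, ← Units.val_mul]
          congr 1
          group
        apply mul_right_cancel₀ hμ0
        have h3' : τ₁ ⟨u * a * u⁻¹, hA.conj_mem a a.2 u⟩ *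
            ((μ ⟨u * a * u⁻¹, hA.conj_mem a a.2 u⟩ : ℂˣ) : ℂ) = τ₁ a * ((μ a : ℂˣ) : ℂ) := h3
        rw [h3', ← h4]
        ring
      have hdetσ : ∀ a, ((ψ (σ a) : ℂˣ) : ℂ) = (((ν⁻¹ : A →* ℂˣ) a : ℂˣ) : ℂ) ^ d * ((ψ a : ℂˣ) : ℂ) := by
        intro a
        have h1 := detChar_comp_equiv hτ₁c σ a
        rw [hcomp, hdet] at h1
        have h2 := detChar_mul_hom hτ₁c (ν⁻¹) d hτ₁1 a
        rw [h2, hdet] at h1
        exact h1.symm
      have hν1 : ∀ a, ν a = 1 := by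
        intro a
        have h1 : ψ (σ a) = ((ν⁻¹ : A →* ℂˣ) a) ^ d * ψ a := by
          apply Units.ext
          rw [hdetσ a]
          simp
        have h2 : ((ν⁻¹ : A →* ℂˣ) a) ^ d = ψ (σ a) * (ψ a)⁻¹ := by
          rw [h1]; group
        have h3 : (((ν⁻¹ : A →* ℂˣ) a) ^ d) ^ n = 1 := by
          rw [h2, mul_pow, hψn, inv_pow, hψn, one_mul, inv_one]
        have h4 : (ν a) ^ (d * n) = 1 := by
          have : ((ν⁻¹ : A →* ℂˣ) a) = (ν a)⁻¹ := rfl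
          rw [this, inv_pow, inv_pow, inv_eq_one, ← pow_mul] at h3
          exact h3
        have h5 := orderOf_dvd_of_pow_eq_one h4
        have h6 := orderOf_dvd_of_pow_eq_one (hν u a)
        have hcop : (d * n).Coprime q := by
          rw [Nat.coprime_comm, Nat.Prime.coprime_iff_not_dvd hq]
          intro h
          rcases (Nat.Prime.dvd_mul hq).1 h with h | h
          · exact hqτ h
          · exact hqn h
        have h7 := Nat.eq_one_of_dvd_coprimes hcop h5 h6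
        exact orderOf_eq_one_iff.mp h7
      have h3 := hν1 v
      rw [hνa] at h3
      exact mul_inv_eq_one.mp h3
    · exact le_inertiaOf A (isCharacter_of_isIrrCharacter hη)
  obtain ⟨χ, hχ, hχ1⟩ := exists_irr_over_of_cyclic A hcyc hη
  refine ⟨⟨χ, hχ⟩, Values.IsCharacter.charDegree_eq (Values.IsIrrCharacter.isCharacter hχ) ?_⟩
  rw [hχ1, hT]
  simp [hτ₁1]

end Cfsg.Agent.Lib.NoDiv
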