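import Mathlib
import Cfsg.Agent.Lib.NoDiv.StructDefs
import Cfsg.Agent.Lib.Char.CliffordCorr
import Cfsg.Agent.Lib.Char.ThreeDeg.KeyD
import Cfsg.Agent.Lib.Char.PDerived
import Cfsg.Agent.Lib.Char.ItoMichler

/-!
# Consequences of the structure in case two: the degree `|A : ker rho|`
-/

set_option autoImplicit false
set_option linter.style.haveILetI false
set_option linter.unusedSectionVars false
set_option linter.deprecated false

namespace Cfsg.Agent.Lib.NoDiv

open Cfsg Cfsg.Agent.Lib.Char Cfsg.Agent.Lib.Char.Basic Cfsg.Agent.Lib.Char.Ortho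
  Cfsg.Agent.Lib.Char.Induced Cfsg.Agent.Lib.Char.CliffordCorr Cfsg.Agent.Lib.Char.Clifford

universe u

variable {A : Type u} [Group A] [Finite A] {α : A ≃* A}

namespace StructAux

/-- Elements of `F` in `F'`. -/
theorem coe_mem_D2 {w : commutator A} (hw : w ∈ commutator (commutator A)) : (w : A) ∈ D2 A := by
  have : (w : A) ∈ (commutator (commutator A)).map (commutator A).subtype :=
    ⟨w, hw, rfl⟩
  rw [Subgroup.map_subtype_commutator] at this
  exact this

theorem mem_comm_of_coe {w : commutator A} (hw : (w : A) ∈ D2 A) :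
    w ∈ commutator (commutator A) := by
  have h : (w : A) ∈ (commutator (commutator A)).map (commutator A).subtype := by
    rw [Subgroup.map_subtype_commutator]
    exact hw
  obtain ⟨w', hw', e⟩ := h
  have : w' = w := Subtype.ext e
  exact this ▸ hw'

/-- A hom to `ℂˣ` kills commutators. -/
theorem hom_eq_one (l : Sd A) {w : commutator A} (hw : (w : A) ∈ D2 A) : l w = 1 := by
  have h2 := mem_comm_of_coe hw
  have hle : commutator (commutator A) ≤ l.ker := by
    show ⁅(⊤ : Subgroup (commutator A)), ⊤⁆ ≤ l.ker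
    rw [Subgroup.commutator_le]
    intro a _ b _
    rw [MonoidHom.mem_ker, commutatorElement_def]
    simp only [map_mul, map_inv]
    rw [mul_comm (l a), mul_assoc, mul_assoc]
    simp
  exact hle h2

/-- `[F, J] ≤ F'`. -/
theorem comm_mem_of_rho {j : A} (h : rho j = 1) (f : commutator A) :
    j⁻¹ * (f : A) * j * (f : A)⁻¹ ∈ D2 A := by
  by_contra hcon
  let w : commutator A := conjF j⁻¹ f * f⁻¹
  have hw : (w : A) = j⁻¹ * (f : A) * j * (f : A)⁻¹ := by
    simp [w, conjF_coe]
  have hw2 : w ∉ commutator (commutator A) := by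
    intro h2
    apply hcon
    rw [← hw]
    exact coe_mem_D2 h2
  obtain ⟨l, hl⟩ := PDerived.exists_lin_ne_one hw2
  apply hl
  have h1 : rho j l f = l f := by rw [h]; rfl
  rw [rho_apply] at h1
  simp only [w, map_mul, map_inv, h1, mul_inv_cancel]

end StructAux

open StructAux in
theorem comm_ker_le {x : A} {t : ℕ} (ht : t.Prime) (hcop : ¬ t ∣ Nat.card (commutator A))
    (hx : x ^ t = 1) (hfpf : ∀ z ∈ commutator A, x * z * x⁻¹ = z → z = 1) {j₁ j₂ : A}
    (h₁ : rho j₁ = 1) (h₂ : rho j₂ = 1) : j₁ * j₂ * j₁⁻¹ * j₂⁻¹ ∈ D2 A := by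
  classical
  haveI : Fact t.Prime := ⟨ht⟩
  set π : A →* A ⧸ D2 A := QuotientGroup.mk' (D2 A) with hπ
  have hπ1 : ∀ y, π y = 1 ↔ y ∈ D2 A := fun y => QuotientGroup.eq_one_iff y
  set c : A := j₁ * j₂ * j₁⁻¹ * j₂⁻¹ with hc
  have hcF : c ∈ commutator A := by
    rw [commutator_def]
    exact Subgroup.commutator_mem_commutator (Subgroup.mem_top _) (Subgroup.mem_top _)
  -- commuting in the quotient
  have hcomm : ∀ {j : A}, rho j = 1 → ∀ f ∈ commutator A, π f * π j = π j * π f := by
    intro j hj f hf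
    have h := (hπ1 _).2 (comm_mem_of_rho hj ⟨f, hf⟩)
    simp only [map_mul, map_inv] at h
    have h2 : (π j)⁻¹ * π f * π j = π f := by
      rw [← mul_one (π f)]
      rw [mul_one]
      exact mul_inv_eq_one.1 h
    calc π f * π j = π j * ((π j)⁻¹ * π f * π j) := by group
      _ = π j * π f := by rw [h2]
  have hcommF : ∀ f ∈ commutator A, ∀ f' ∈ commutator A, π f * π f' = π f' * π f := by
    intro f hf f' hf'
    have h : f * f' * f⁻¹ * f'⁻¹ ∈ D2 A :=
      Subgroup.commutator_mem_commutator hf hf'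
    have h2 := (hπ1 _).2 h
    simp only [map_mul, map_inv] at h2
    calc π f * π f' = (π f * π f' * (π f)⁻¹ * (π f')⁻¹) * (π f' * π f) := by group
      _ = π f' * π f := by rw [h2, one_mul]
  -- `x` commutes with `c` in the quotient
  have hxj : ∀ j : A, j⁻¹ * x * j * x⁻¹ ∈ commutator A := by
    intro j
    rw [commutator_def]
    have := Subgroup.commutator_mem_commutator (Subgroup.mem_top j⁻¹) (Subgroup.mem_top x)
    rw [commutatorElement_def] at this
    simpa using this
  have hf₁ := hxj j₁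
  have hf₂ := hxj j₂
  set f₁ := j₁⁻¹ * x * j₁ * x⁻¹ with hf₁def
  set f₂ := j₂⁻¹ * x * j₂ * x⁻¹ with hf₂def
  have e1 : x * j₁ * x⁻¹ = j₁ * f₁ := by rw [hf₁def]; group
  have e2 : x * j₂ * x⁻¹ = j₂ * f₂ := by rw [hf₂def]; group
  have hconj : π (x * c * x⁻¹) = π c := by
    have hxc : x * c * x⁻¹ = (x * j₁ * x⁻¹) * (x * j₂ * x⁻¹) * (x * j₁ * x⁻¹)⁻¹ * (x * j₂ * x⁻¹)⁻¹ := by
      rw [hc]; group
    rw [hxc, e1, e2, hc]
    simp only [map_mul, map_inv]
    have u1 := hcomm h₁ _ hf₁
    have u2 := hcomm h₂ _ hf₁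
    have u3 := hcomm h₁ _ hf₂
    have u4 := hcomm h₂ _ hf₂
    have u5 := hcommF _ hf₁ _ hf₂
    generalize π j₁ = a at u1 u2 u3 u4 u5 ⊢
    generalize π j₂ = b at u1 u2 u3 u4 u5 ⊢
    generalize π f₁ = u at u1 u2 u3 u4 u5 ⊢
    generalize π f₂ = v at u1 u2 u3 u4 u5 ⊢
    -- `u, v` are central among `a, b, u, v`
    have : a * u * (b * v) * (a * u)⁻¹ * (b * v)⁻¹ =
        a * (u * b * v * u⁻¹) * a⁻¹ * v⁻¹ * b⁻¹ := by group
    rw [this]
    have s1 : u * b * v * u⁻¹ = b * v := by
      rw [u2, mul_assoc b u v, u5, ← mul_assoc b v u]; group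
    rw [s1]
    have s2 : a * (b * v) * a⁻¹ * v⁻¹ * b⁻¹ = a * b * (a⁻¹ * (a * v * a⁻¹) * v⁻¹) * b⁻¹ := by group
    rw [s2]
    have s3 : a * v * a⁻¹ = v := by
      rw [← u3]; group
    rw [s3]
    group
  -- the coset `c F'`
  have hpow : ∀ h ∈ Subgroup.zpowers x, π h * π c = π c * π h := by
    rintro _ ⟨n, rfl⟩
    have hXC : Commute (π x) (π c) := by
      have := hconj
      simp only [map_mul, map_inv] at this
      show π x * π c = π c * π x
      calc π x * π c = (π x * π c * (π x)⁻¹) * π x := by group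
        _ = π c * π x := by rw [this]
    have := (hXC.zpow_left n)
    simp only [map_zpow]
    exact this
  let X := {y : A // π y = π c}
  letI act : MulAction (Subgroup.zpowers x) X :=
    { smul := fun h y => ⟨(h : A) * y.1 * (h : A)⁻¹, by
        simp only [map_mul, map_inv, y.2]
        rw [hpow h.1 h.2]
        group⟩
      one_smul := fun y => by
        apply Subtype.ext
        show ((1 : Subgroup.zpowers x) : A) * y.1 * ((1 : Subgroup.zpowers x) : A)⁻¹ = y.1
        simp
      mul_smul := fun h k y => by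
        apply Subtype.ext
        show ((h * k : Subgroup.zpowers x) : A) * y.1 * ((h * k : Subgroup.zpowers x) : A)⁻¹ =
          (h : A) * ((k : A) * y.1 * (k : A)⁻¹) * (h : A)⁻¹
        simp only [Subgroup.coe_mul]
        group }
  have hP : IsPGroup t (Subgroup.zpowers x) := by
    rintro ⟨_, n, rfl⟩
    refine ⟨1, ?_⟩
    apply Subtype.ext
    simp only [pow_one, Subgroup.coe_pow, OneMemClass.coe_one]
    rw [← zpow_natCast, ← zpow_mul, mul_comm, zpow_mul, zpow_natCast, hx, one_zpow]
  -- `|X| = |F'|`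
  have hcard : Nat.card X = Nat.card (D2 A) := by
    apply Nat.card_congr
    exact
      { toFun := fun y => ⟨y.1 * c⁻¹, (hπ1 _).1 (by simp [y.2])⟩
        invFun := fun d => ⟨d.1 * c, by simp [(hπ1 _).2 d.2]⟩
        left_inv := fun y => by
          apply Subtype.ext
          simp
        right_inv := fun d => by
          apply Subtype.ext
          simp }
  have hnd : ¬ t ∣ Nat.card X := by
    rw [hcard]
    intro h
    exact hcop (h.trans (Subgroup.card_dvd_of_le D2_le))
  obtain ⟨z, hz⟩ := hP.nonempty_fixed_point_of_prime_not_dvd_card X hnd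
  have hzfix : x * z.1 * x⁻¹ = z.1 := by
    have := congrArg Subtype.val (hz ⟨x, Subgroup.mem_zpowers x⟩)
    exact this
  have hzF : z.1 ∈ commutator A := by
    have h1 : z.1 * c⁻¹ ∈ D2 A := (hπ1 _).1 (by simp [z.2])
    have h2 : z.1 * c⁻¹ * c ∈ commutator A := (commutator A).mul_mem (D2_le h1) hcF
    simpa using h2
  have hz1 := hfpf z.1 hzF hzfix
  have h3 := z.2
  rw [hz1, map_one] at h3
  exact (hπ1 _).1 h3.symm

namespace StructAux

/-- The complex function of a linear character of `F`. -/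
abbrev lt (l : Sd A) : commutator A → ℂ := fun n => ((l n : ℂˣ) : ℂ)

theorem lt_irr (l : Sd A) : IsIrrCharacter (commutator A) (lt l) := LinearChars.isIrr_of_hom l

/-- A character trivial on `F'` has a linear constituent on `F`. -/
theorem exists_lin_over [Fintype A] [Fintype (commutator A)] {θ : A → ℂ}
    (hθ : IsIrrCharacter A θ) (htriv : ∀ f ∈ D2 A, θ f = θ 1) :
    ∃ l : Sd A, classInner (fun n : commutator A => θ n) (lt l) ≠ 0 := by
  classical
  by_contra hcon
  push Not at hcon
  letI : Fintype (Sd A) := Fintype.ofFinite _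
  have hsum : ∑ l : Sd A, classInner (fun n : commutator A => θ n) (lt l) = 0 :=
    Finset.sum_eq_zero (fun l _ => hcon l)
  have hS : ∀ f : commutator A, (f : A) ∉ D2 A →
      ∑ l : Sd A, (starRingEnd ℂ) (lt l f) = 0 := by
    intro f hf
    have hf2 : f ∉ commutator (commutator A) := fun h => hf (coe_mem_D2 h)
    obtain ⟨l₀, hl₀⟩ := PDerived.exists_lin_ne_one hf2
    have h1 : ∑ l : Sd A, (starRingEnd ℂ) (lt (l₀ * l) f) = ∑ l : Sd A, (starRingEnd ℂ) (lt l f) :=
      Equiv.sum_comp (Equiv.mulLeft l₀) (fun l => (starRingEnd ℂ) (lt l f))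
    have h2 : ∀ l : Sd A, (starRingEnd ℂ) (lt (l₀ * l) f) =
        (starRingEnd ℂ) (lt l₀ f) * (starRingEnd ℂ) (lt l f) := by
      intro l
      simp [lt]
    simp only [h2] at h1
    rw [← Finset.mul_sum] at h1
    have h3 : (starRingEnd ℂ) (lt l₀ f) ≠ 1 := by
      intro h
      apply hl₀
      have h4 : lt l₀ f = 1 := by
        have := congrArg (starRingEnd ℂ) h
        simpa using this
      exact Units.ext h4
    by_contra h5
    apply h3
    exact mul_right_cancel₀ h5 (by rw [h1, one_mul])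
  have hS' : ∀ f : commutator A, (f : A) ∈ D2 A →
      ∑ l : Sd A, (starRingEnd ℂ) (lt l f) = (Fintype.card (Sd A) : ℂ) := by
    intro f hf
    have : ∀ l : Sd A, (starRingEnd ℂ) (lt l f) = 1 := by
      intro l
      simp [lt, hom_eq_one l hf]
    simp [this]
  have hne1 : θ 1 ≠ 0 := irr_apply_one_ne_zero hθ
  have hexp : ∑ l : Sd A, classInner (fun n : commutator A => θ n) (lt l) =
      (Nat.card (commutator A) : ℂ)⁻¹ *
        ∑ f : commutator A, θ f * ∑ l : Sd A, (starRingEnd ℂ) (lt l f) := by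
    simp only [classInner, Finset.mul_sum]
    rw [Finset.sum_comm]
  have hf : ∀ f : commutator A, θ f * ∑ l : Sd A, (starRingEnd ℂ) (lt l f) =
      if (f : A) ∈ D2 A then θ 1 * (Fintype.card (Sd A) : ℂ) else 0 := by
    intro f
    by_cases h : (f : A) ∈ D2 A
    · rw [if_pos h, hS' f h, htriv _ h]
    · rw [if_neg h, hS f h, mul_zero]
  rw [hexp] at hsum
  simp only [hf] at hsum
  have hcard0 : (Nat.card (commutator A) : ℂ) ≠ 0 := by
    exact_mod_cast Nat.card_pos.ne'
  have h3 := (mul_eq_zero.1 hsum).resolve_left (inv_ne_zero hcard0)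
  rw [Finset.sum_ite, Finset.sum_const_zero, add_zero, Finset.sum_const, nsmul_eq_mul] at h3
  have hpos : 0 < (Finset.univ.filter fun f : commutator A => (f : A) ∈ D2 A).card :=
    Finset.card_pos.2 ⟨1, by simp [(D2 A).one_mem]⟩
  have hSd : (Fintype.card (Sd A) : ℂ) ≠ 0 := by
    exact_mod_cast Fintype.card_pos.ne'
  rcases mul_eq_zero.1 h3 with h4 | h4
  · exact hpos.ne' (by exact_mod_cast h4)
  · exact (mul_ne_zero hne1 hSd) h4

/-- The Clifford formula: value at an element on which all conjugates of `l` are trivial. -/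
theorem val_eq [Fintype A] [Fintype (commutator A)] {θ : A → ℂ} (hθ : IsIrrCharacter A θ)
    (l : Sd A) (h : classInner (fun n : commutator A => θ n) (lt l) ≠ 0) (n : commutator A)
    (hn : ∀ g : A, lt l ⟨g * n * g⁻¹, (commutator A).normal_of_characteristic.conj_mem _ n.2 g⟩ = 1) :
    θ n = θ 1 := by
  classical
  have h3 := res_eq_smul_finsum (commutator A) hθ (lt_irr l) h
  have hfin := orbitSet_finite (commutator A) (lt_irr l)
  rw [finsum_mem_eq_finite_toFinset_sum _ hfin] at h3
  have e1 := congrFun h3 n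
  have e2 := congrFun h3 1
  simp only [Pi.smul_apply, Finset.sum_apply, smul_eq_mul] at e1 e2
  have e3 : ((1 : commutator A) : A) = 1 := rfl
  rw [e3] at e2
  rw [e1, e2]
  congr 1
  apply Finset.sum_congr rfl
  intro ψ hψ
  obtain ⟨g, rfl⟩ := (Set.Finite.mem_toFinset _).1 hψ
  show lt l ⟨g * n * g⁻¹, _⟩ = lt l ⟨g * 1 * g⁻¹, _⟩
  rw [hn g]
  have : ∀ p, (⟨g * 1 * g⁻¹, p⟩ : commutator A) = 1 := fun p => by
    apply Subtype.ext
    simp
  rw [this]
  simp [lt]

end StructAux

open StructAux in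
theorem degree_eq_index {r : ℕ} (st : Struct α r)
    (hJ : ∀ j₁ j₂ : A, rho j₁ = 1 → rho j₂ = 1 → j₁ * j₂ * j₁⁻¹ * j₂⁻¹ ∈ D2 A)
    (θ : IrrCharacter A) (hθ : 1 < charDegree (θ : A → ℂ))
    (htriv : ∀ f ∈ D2 A, (θ : A → ℂ) f = (θ : A → ℂ) 1) :
    charDegree (θ : A → ℂ) = (rho (A := A)).ker.index := by
  classical
  cases nonempty_fintype A
  letI : Fintype (commutator A) := Fintype.ofFinite _
  have hθc := isCharacter_of_isIrrCharacter θ.2
  obtain ⟨l, hl⟩ := exists_lin_over θ.2 htriv
  -- `l ≠ 1`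
  have hl1 : l ≠ 1 := by
    rintro rfl
    have h1 : ∀ c ∈ commutator A, (θ : A → ℂ) c = (θ : A → ℂ) 1 := by
      intro c hc
      refine val_eq θ.2 1 hl ⟨c, hc⟩ ?_
      intro g
      simp [lt]
    have h2 := PDerived.one_eq_one_of_commutator_le_ker θ.2 h1
    have h3 := Values.IsCharacter.charDegree_cast hθc
    rw [h2] at h3
    have h4 : charDegree (θ : A → ℂ) = 1 := by exact_mod_cast h3
    omega
  set T : Subgroup A := (rho (A := A)).ker with hTdef
  letI : Fintype T := Fintype.ofFinite _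
  have hFT : commutator A ≤ T := fun f hf => rho_eq_one_of_mem hf
  have hT : ∀ g : A, g ∈ T ↔ ∀ n : commutator A,
      lt l ⟨g * n * g⁻¹, (commutator A).normal_of_characteristic.conj_mem (n : A) n.2 g⟩ = lt l n := by
    intro g
    constructor
    · intro hg n
      have hg1 : rho g = 1 := hg
      have hg2 : rho g⁻¹ = 1 := by rw [map_inv, hg1, inv_one]
      have h1 : rho g⁻¹ l n = l n := by rw [hg2]; rfl
      rw [rho_apply] at h1
      have h2 : conjF g⁻¹⁻¹ n = ⟨g * n * g⁻¹, (commutator A).normal_of_characteristic.conj_mem (n : A) n.2 g⟩ := by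
        apply Subtype.ext
        simp
      rw [h2] at h1
      simp only [lt]
      rw [h1]
    · intro hg
      have h1 : rho g⁻¹ l = l := by
        ext n
        rw [rho_apply]
        have h2 : conjF g⁻¹⁻¹ n = ⟨g * n * g⁻¹, (commutator A).normal_of_characteristic.conj_mem (n : A) n.2 g⟩ := by
          apply Subtype.ext
          simp
        rw [h2]
        exact hg n
      have h2 := st.stab g⁻¹ l hl1 h1
      show rho g = 1
      rw [map_inv] at h2
      exact inv_eq_one.1 h2
  obtain ⟨ψ, hψ, hind, hinner⟩ :=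
    exists_indFun_eq (commutator A) (lt l) T hFT (lt_irr l) hT θ.2 hl
  have h' : classInner (resT (commutator A) T hFT ψ) (lt l) ≠ 0 := by rw [hinner]; exact hl
  have hres := res_eq_smul_of_inertia (commutator A) (lt l) T hFT (lt_irr l) hT hψ h'
  -- `ψ` is linear
  have hψ1 : ψ 1 = 1 := by
    apply PDerived.one_eq_one_of_commutator_le_ker hψ
    intro c hc
    have hle : commutator T ≤ (D2 A).subgroupOf T := by
      show ⁅(⊤ : Subgroup T), ⊤⁆ ≤ _
      rw [Subgroup.commutator_le]
      intro a _ b _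
      rw [Subgroup.mem_subgroupOf]
      have := hJ a b a.2 b.2
      simpa [commutatorElement_def] using this
    have hcD : (c : A) ∈ D2 A := hle hc
    have e1 := congrFun hres ⟨c, D2_le hcD⟩
    have e2 := congrFun hres 1
    simp only [Pi.smul_apply, smul_eq_mul, resT] at e1 e2
    have e3 : (⟨((⟨c, D2_le hcD⟩ : commutator A) : A), hFT (D2_le hcD)⟩ : T) = c := Subtype.ext rfl
    have e4 : (⟨((1 : commutator A) : A), hFT (1 : commutator A).2⟩ : T) = 1 := Subtype.ext rfl
    rw [e3] at e1
    rw [e4] at e2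
    rw [e1, e2]
    simp [lt, hom_eq_one l (w := ⟨c, D2_le hcD⟩) hcD]
  apply Values.IsCharacter.charDegree_eq hθc
  rw [← hind, indFun_one, hψ1, mul_one]

open StructAux in
theorem exists_degree_index {r : ℕ} (st : Struct α r)
    (hJ : ∀ j₁ j₂ : A, rho j₁ = 1 → rho j₂ = 1 → j₁ * j₂ * j₁⁻¹ * j₂⁻¹ ∈ D2 A) :
    ∃ θ : IrrCharacter A, 1 < charDegree (θ : A → ℂ) ∧
      (∀ f ∈ D2 A, (θ : A → ℂ) f = (θ : A → ℂ) 1) := by
  classical
  cases nonempty_fintype A
  letI : Fintype (commutator A) := Fintype.ofFinite _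
  obtain ⟨l, hl⟩ := st.nt
  obtain ⟨θ', hθ', hne⟩ := ItoMichler.exists_irr_over (commutator A) (lt_irr l)
  refine ⟨⟨θ', hθ'⟩, ?_, ?_⟩
  · by_contra hdeg
    have hθc := isCharacter_of_isIrrCharacter hθ'
    have h1 := Values.IsCharacter.charDegree_cast hθc
    have h0 : charDegree θ' ≠ 0 := by
      intro h
      rw [h] at h1
      exact irr_apply_one_ne_zero hθ' (by simpa using h1.symm)
    have h2 : charDegree θ' = 1 := by
      show charDegree θ' = 1
      have : charDegree θ' ≤ 1 := not_lt.1 hdeg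
      omega
    have h3 : θ' 1 = 1 := by rw [← h1, h2]; simp
    obtain ⟨φ, hφ⟩ := LinearChars.exists_hom_of_isCharacter_one hθc h3
    apply hne
    have hFker : ∀ f : commutator A, θ' f = 1 := by
      intro f
      have hle : commutator A ≤ φ.ker := by
        rw [commutator_def, Subgroup.commutator_le]
        intro a _ b _
        rw [MonoidHom.mem_ker, commutatorElement_def]
        simp only [map_mul, map_inv]
        rw [mul_comm (φ a), mul_assoc, mul_assoc]
        simp
      have := hle f.2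
      rw [MonoidHom.mem_ker] at this
      rw [hφ]
      simp [this]
    have hres : (fun n : commutator A => θ' n) = lt 1 := by
      funext n
      simp [lt, hFker n]
    rw [hres]
    have hne2 : lt (A := A) 1 ≠ lt l := by
      intro h
      apply hl
      ext f
      have := congrFun h f
      simpa [lt] using this.symm
    exact classInner_irr_of_ne (lt_irr 1) (lt_irr l) hne2
  · intro f hf
    refine val_eq hθ' l hne ⟨f, D2_le hf⟩ ?_
    intro g
    have h1 : g * f * g⁻¹ ∈ D2 A := (inferInstance : (D2 A).Normal).conj_mem f hf g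
    simp [lt, hom_eq_one l (w := ⟨g * f * g⁻¹, D2_le h1⟩) h1]

end Cfsg.Agent.Lib.NoDiv
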