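import Mathlib
import Cfsg.Agent.Lib.NoDiv.Defs
import Cfsg.Agent.Lib.Palfy.Camina
import Cfsg.Agent.Lib.Char.ThreeDeg.KeyD
import Cfsg.Agent.Lib.Char.PDerived
import Cfsg.Agent.Lib.Char.TwistDet
import Cfsg.Agent.Lib.Char.PrimeIndex
import Cfsg.Agent.Lib.Char.Codegree

/-!
# Vanishing consequences of a bad element
-/

set_option autoImplicit false

namespace Cfsg.Agent.Lib.NoDiv

open Cfsg

universe u

variable {A : Type u} [Group A] [Finite A] {α : A ≃* A} {s k : ℕ}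

theorem exists_conj_of_bad (h : MHyp α s k) {a : A} (hb : Bad α a) {z : A} (hz : z ∈ commutator A) :
    ∃ g : A, g * a * g⁻¹ = a * z := by
  have hα : ∀ θ : IrrCharacter A, charDegree (θ : A → ℂ) ≠ 1 → ∀ x : A, (θ : A → ℂ) (α x) = (θ : A → ℂ) x := by
    intro θ hθ x
    have hpos := Cfsg.Agent.Lib.Char.Codegree.charDegree_pos θ.2
    exact h.fix θ (by omega) x
  have hv : a * z * a⁻¹ ∈ commutator A := (inferInstance : (commutator A).Normal).conj_mem z hz a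
  obtain ⟨u, hu⟩ := Cfsg.Agent.Lib.Palfy.camina_of_fixing_nonlinear α hα a hb _ hv
  refine ⟨u, ?_⟩
  rw [commutatorElement_def] at hu
  calc u * a * u⁻¹ = (u * a * u⁻¹ * a⁻¹) * a := by group
    _ = a * z := by rw [hu]; group

theorem prime_dvd_degree (h : MHyp α s k) {t n : ℕ} (ht : t.Prime) {a : A} (hb : Bad α a) (hpow : a ^ (t ^ n) = 1)
    (θ : IrrCharacter A) (hθ : 1 < charDegree (θ : A → ℂ)) : t ∣ charDegree (θ : A → ℂ) := by
  classical
  cases nonempty_fintype A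
  obtain ⟨l, hl⟩ := Cfsg.Agent.Lib.Char.PDerived.exists_lin_ne_one (G := A) hb
  let ν : A →* ℂˣ := (l.comp α.toMonoidHom) * l⁻¹
  have hνa : ν a ≠ 1 := by
    intro h1
    apply hl
    have h2 : ν a = l (α a * a⁻¹) := by
      simp [ν, map_mul, map_inv]
    rwa [h2] at h1
  have hdeg1 : (θ : A → ℂ) 1 = (charDegree (θ : A → ℂ) : ℂ) :=
    (Cfsg.Agent.Lib.Char.Values.IsCharacter.charDegree_cast
      (Cfsg.Agent.Lib.Char.Basic.isCharacter_of_isIrrCharacter θ.2)).symm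
  let θ' : IrrCharacter A := ⟨fun g => (θ : A → ℂ) g * ((l g : ℂˣ) : ℂ), Cfsg.Agent.Lib.Char.PrimeIndex.isIrr_mul_hom θ.2 l⟩
  have hdeg2 : charDegree (θ' : A → ℂ) = charDegree (θ : A → ℂ) := by
    have h3 : (θ' : A → ℂ) 1 = (charDegree (θ' : A → ℂ) : ℂ) :=
      (Cfsg.Agent.Lib.Char.Values.IsCharacter.charDegree_cast
        (Cfsg.Agent.Lib.Char.Basic.isCharacter_of_isIrrCharacter θ'.2)).symm
    have h4 : (θ' : A → ℂ) 1 = (θ : A → ℂ) 1 := by
      show (θ : A → ℂ) 1 * ((l 1 : ℂˣ) : ℂ) = _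
      simp
    rw [h4, hdeg1] at h3
    exact_mod_cast h3.symm
  have hfix : ∀ g : A, (θ : A → ℂ) g * ((ν g : ℂˣ) : ℂ) = (θ : A → ℂ) g := by
    intro g
    have h5 := h.fix θ' (by rw [hdeg2]; exact hθ) g
    have h6 : (θ : A → ℂ) (α g) * ((l (α g) : ℂˣ) : ℂ) = (θ : A → ℂ) g * ((l g : ℂˣ) : ℂ) := h5
    rw [h.fix θ hθ g] at h6
    have h7 : ((ν g : ℂˣ) : ℂ) = ((l (α g) : ℂˣ) : ℂ) * ((l g : ℂˣ) : ℂ)⁻¹ := by
      simp [ν]
    have h8 : ((l g : ℂˣ) : ℂ) ≠ 0 := (l g).ne_zero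
    rw [h7]
    field_simp
    exact h6
  have h9 := Cfsg.Agent.Lib.Char.TwistDet.pow_eq_one_of_twist θ.2 ν hfix hdeg1 a
  have h10 : ν a ^ charDegree (θ : A → ℂ) = 1 := by
    apply Units.ext
    simpa using h9
  have h11 : ν a ^ (t ^ n) = 1 := by
    rw [← map_pow, hpow, map_one]
  by_contra hnd
  have hcop : Nat.Coprime (charDegree (θ : A → ℂ)) (t ^ n) :=
    Nat.Coprime.pow_right _ ((Nat.Prime.coprime_iff_not_dvd ht).2 hnd).symm
  have h12 : orderOf (ν a) ∣ 1 := by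
    rw [← hcop.gcd_eq_one]
    exact Nat.dvd_gcd (orderOf_dvd_of_pow_eq_one h10) (orderOf_dvd_of_pow_eq_one h11)
  exact hνa (orderOf_eq_one_iff.1 (Nat.dvd_one.1 h12))

theorem exists_bad_prime_power (a : A) (hb : Bad α a) :
    ∃ (t n : ℕ) (x : A), t.Prime ∧ x ^ (t ^ n) = 1 ∧ Bad α x ∧ ∃ m : ℕ, x = a ^ m := by
  let φ : A →* Abelianization A := ((Abelianization.of : A →* Abelianization A).comp α.toMonoidHom) *
    (Abelianization.of : A →* Abelianization A)⁻¹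
  have hφ : ∀ y : A, φ y = 1 ↔ ¬ Bad α y := by
    intro y
    have h1 : φ y = Abelianization.of (α y * y⁻¹) := by
      simp [φ, map_mul, map_inv]
    rw [h1, Bad, not_not, ← Abelianization.ker_of, MonoidHom.mem_ker]
  have hb1 : φ a ≠ 1 := fun h1 => (hφ a).1 h1 hb
  have hord1 : orderOf (φ a) ≠ 1 := fun h1 => hb1 (orderOf_eq_one_iff.1 h1)
  obtain ⟨t, ht, htd⟩ := Nat.exists_prime_and_dvd hord1
  have hdvd : orderOf (φ a) ∣ orderOf a := orderOf_map_dvd φ a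
  have hN : orderOf a ≠ 0 := (orderOf_pos a).ne'
  obtain ⟨n, r, hr, hNr⟩ := Nat.exists_eq_pow_mul_and_not_dvd hN t ht.ne_one
  refine ⟨t, n, a ^ r, ht, ?_, ?_, r, rfl⟩
  · rw [← pow_mul, mul_comm, ← hNr]
    exact pow_orderOf_eq_one a
  · by_contra hcon
    have h1 : φ (a ^ r) = 1 := (hφ _).2 hcon
    rw [map_pow] at h1
    exact hr (htd.trans (orderOf_dvd_of_pow_eq_one h1))

end Cfsg.Agent.Lib.NoDiv
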